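import Cfsg.Agent.L4.GL3
import Cfsg.Agent.L4.G1

/-!
A simplex of seven vectors in the exterior square.
-/

set_option autoImplicit false
set_option linter.unusedSectionVars false

namespace Cfsg.Agent.L4.G
open Matrix Subgroup Cfsg.Agent.H1.Spin6 Cfsg.Agent.L4.R Cfsg.Agent.L4.H Cfsg.Geo

variable {F : Type*} [Field F]

/-- The points of the Fano plane and zero. -/
abbrev V3 := Fin 3 → Z2

theorem sub_Bw' (x y z : Fin 6 → F) : Bw (x - y) z = Bw x z - Bw y z := by simp [Bw]; ring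

theorem Bw_sub (x y z : Fin 6 → F) : Bw x (y - z) = Bw x y - Bw x z := by simp [Bw]; ring

theorem Bw_zero (x : Fin 6 → F) : Bw x 0 = 0 := by simp [Bw]

theorem L2_rot (a b y : Fin 6 → F) : L2 (ψ a * ψ (τ b)) y =
    Bw a (Bw b y • b - Pf F b • y) • a - Pf F a • (Bw b y • b - Pf F b • y) := by
  apply ψ_inj
  have h1 : ψ (τ b) * ψ y * ψ (τ b) = ψ (τ (Bw b y • b - Pf F b • y)) := by
    rw [eq_sub_of_add_eq (ψ_anti' b y), sub_mul, mul_assoc, ψ_sq, ← Bw_eq]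
    simp
  generalize Bw b y • b - Pf F b • y = z at h1 ⊢
  have h2 : ψ a * ψ (τ z) * ψ a = ψ (Bw a z • a - Pf F a • z) := by
    rw [eq_sub_of_add_eq (ψ_anti a z), sub_mul, mul_assoc, ψ_sq', ← Bw_eq]
    simp
  rw [ψ_L2, ← h2, ← h1, transpose_mul, ψ_tr, ψ_tr]
  simp only [neg_mul, mul_neg, neg_neg, mul_assoc]

theorem det_ψ (a : Fin 6 → F) : (ψ a).det = Pf F a ^ 2 := by
  rw [ψ_def, dm4, Pf_apply]; ring

/-- A quarter turn. -/
def rot (F : Type*) [Field F] : M4 F := !![0, -1, 0, 0; 1, 0, 0, 0; 0, 0, 1, 0; 0, 0, 0, 1]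

theorem det_rot : (rot F).det = 1 := by rw [rot, dm4]; ring

theorem L2_quarter (y : Fin 6 → F) : L2 (rot F) y = ![y 0, -y 3, -y 4, y 1, y 2, y 5] := by
  simp [rot, L2_apply, ψ_def, tm4, co4]

theorem ex_out (a b c d : V3) : ∃ w, w ≠ 0 ∧ w ≠ a ∧ w ≠ b ∧ w ≠ c ∧ w ≠ d := by
  by_contra! h
  have : (Finset.univ : Finset V3) ⊆ {0, a, b, c, d} := fun w _ => by
    simp only [Finset.mem_insert, Finset.mem_singleton]
    tauto
  have := (Finset.card_le_card this).trans Finset.card_le_five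
  simp at this

/-- A regular simplex. -/
structure Sx (x : V3 → Fin 6 → F) (β : F) : Prop where
  two : (2 : F) ≠ 0
  sev : (7 : F) ≠ 0
  ne : β ≠ 0
  zero : x 0 = 0
  diag : ∀ v, v ≠ 0 → Bw (x v) (x v) = -6 * β
  off : ∀ v w, v ≠ 0 → w ≠ 0 → v ≠ w → Bw (x v) (x w) = β
  nd : ∀ y, (∀ v, Bw y (x v) = 0) → y = 0

namespace Sx
variable {x : V3 → Fin 6 → F} {β : F} (h : Sx x β)
include h

theorem n_ne : -7 * β ≠ 0 := mul_ne_zero (neg_ne_zero.2 h.sev) h.ne

theorem b1 {u w : V3} (u0 : u ≠ 0) (w0 : w ≠ 0) (e : u ≠ w) : Bw (x u - x w) (x u) = -7 * β := by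
  rw [sub_Bw', h.diag u u0, h.off w u w0 u0 e.symm]; ring

theorem b2 {u w v : V3} (u0 : u ≠ 0) (w0 : w ≠ 0) (e1 : u ≠ v) (e2 : w ≠ v) :
    Bw (x u - x w) (x v) = 0 := by
  by_cases v0 : v = 0
  · rw [v0, h.zero, Bw_zero]
  rw [sub_Bw', h.off u v u0 v0 e1, h.off w v w0 v0 e2, sub_self]

theorem pf {u w : V3} (u0 : u ≠ 0) (w0 : w ≠ 0) (e : u ≠ w) : Pf F (x u - x w) = -7 * β := by
  apply mul_left_cancel₀ h.two
  have : Bw (x u - x w) (x u - x w) = 2 * Pf F (x u - x w) := by simp [Bw, Pf_apply]; ring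
  rw [← this, Bw_sub, h.b1 u0 w0 e, ← neg_sub (x w), ← neg_one_smul F (x w - x u), smul_Bw,
    h.b1 w0 u0 e.symm]
  ring

theorem refl {u w : V3} (u0 : u ≠ 0) (w0 : w ≠ 0) (e : u ≠ w) (v : V3) :
    Bw (x u - x w) (x v) • (x u - x w) - (-7 * β) • x v = (7 * β) • x (Equiv.swap u w v) := by
  by_cases e1 : v = u
  · rw [e1, h.b1 u0 w0 e, Equiv.swap_apply_left]; module
  by_cases e2 : v = w
  · rw [e2, ← neg_sub (x w), ← neg_one_smul F, smul_Bw, h.b1 w0 u0 e.symm, Equiv.swap_apply_right]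
    module
  rw [h.b2 u0 w0 (Ne.symm e1) (Ne.symm e2), Equiv.swap_apply_of_ne_of_ne e1 e2]; module

theorem inj {u v : V3} {c : F} (v0 : v ≠ 0) (e : c • x u = x v) : u = v := by
  by_contra e1
  obtain ⟨w, w0, w1, w2, -⟩ := ex_out u v u u
  have := h.b1 v0 w0 w2.symm
  rw [← congrArg (Bw _) e, Bw_smul, h.b2 v0 w0 (Ne.symm e1) w1, mul_zero] at this
  exact h.n_ne this.symm

theorem no_rot {c : F} {σ : V3 → V3} (i : Function.Injective σ) (s0 : σ 0 = 0)
    (e : ∀ v, L2 (rot F) (x v) = c • x (σ v)) : False := by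
  have n0 : ∀ {v}, v ≠ 0 → σ v ≠ 0 := fun h e => h (i (e.trans s0.symm))
  have c2 : c * c = 1 := by
    have := Bw_L2 (rot F) (x ![1, 0, 0]) (x ![0, 1, 0])
    rw [e, e, det_rot, smul_Bw, Bw_smul, h.off _ _ (n0 (by decide)) (n0 (by decide))
      (i.ne (by decide)), h.off _ _ (by decide) (by decide) (by decide)] at this
    exact mul_right_cancel₀ h.ne (by linear_combination this)
  have r : ∀ v, c • x (σ (σ (σ v))) - x (σ (σ v)) + c • x (σ v) - x v = 0 := fun v => by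
    have : ∀ y : Fin 6 → F, L2 (rot F) (L2 (rot F) (L2 (rot F) y)) - L2 (rot F) (L2 (rot F) y) +
        L2 (rot F) y - y = 0 := fun y => by
      ext i; fin_cases i <;> simp [L2_quarter]
    simpa only [e, map_smul, smul_smul, c2, one_smul, ← mul_assoc, one_mul] using this (x v)
  have f : ∀ v, σ v = v := fun v => by
    by_cases v0 : v = 0
    · rw [v0, s0]
    by_contra e1
    by_cases e2 : σ (σ v) = v
    · refine e1 (h.inj (c := c) v0 (smul_right_injective _ h.two ?_))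
      have := r v
      rw [e2] at this
      linear_combination (norm := module) this
    obtain ⟨w, w0, w1, w2, w3, w4⟩ := ex_out v (σ v) (σ (σ v)) (σ (σ (σ v)))
    have := congrArg (Bw (x (σ (σ v)) - x w)) (r v)
    have t0 := n0 (n0 v0)
    rw [Bw_sub, Bw_add, Bw_sub, Bw_smul, Bw_smul, h.b1 t0 w0 w3.symm, h.b2 t0 w0 e2 w1,
      h.b2 t0 w0 (i.ne e1) w2, h.b2 t0 w0 (i.ne (i.ne e1)).symm w4, Bw_zero] at this
    exact h.n_ne (by linear_combination -this)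
  have c1 : c = 1 := by
    have := congrArg (Bw (x ![1, 0, 0] - x ![0, 1, 0])) (r ![1, 0, 0])
    simp only [f, Bw_sub, Bw_add, Bw_smul, Bw_zero] at this
    rw [h.b1 (by decide) (by decide) (by decide)] at this
    exact mul_left_cancel₀ (mul_ne_zero h.two h.n_ne) (by linear_combination this)
  have := h.nd (L2 (rot F) (Pi.single 1 1) - Pi.single 1 1) fun v => by
    have := Bw_L2 (rot F) (Pi.single 1 1) (x v)
    rw [e, f, c1, one_smul, det_rot, one_mul] at this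
    rw [sub_Bw', this, sub_self]
  simpa [L2_quarter] using congrFun this 1

theorem nonmax [Finite F] {H K : Subgroup (GL (Fin 4) F)} (hH : IsMaximalIn K H)
    (hM : ∀ g ∈ H, ∃ (c : F) (Y : S8), ∀ v, L2 g.1 (x v) = c • x (Y.1 *ᵥ v))
    (hA : ∀ A : GL (Fin 4) F, A.1 = (-7 * β)⁻¹ • (ψ (x ![1, 0, 0] - x ![0, 1, 0]) *
      ψ (τ (x ![0, 1, 0] - x ![0, 0, 1]))) → A.1.det = 1 → A ∈ K)
    (hu : ∀ A : GL (Fin 4) F, A.1 = rot F → A ∈ K) : False := by
  let M : Subgroup (GL (Fin 4) F) := T.mkSub (fun g => ∃ (c : F) (σ : V3 → V3),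
      Function.Injective σ ∧ σ 0 = 0 ∧ ∀ v, L2 g.1 (x v) = c • x (σ v))
    ⟨1, id, fun _ _ => id, rfl, by simp [L2_one]⟩ (by
      rintro a b ⟨c, σ, h1, h2, h3⟩ ⟨c', σ', h4, h5, h6⟩
      exact ⟨c' * c, σ ∘ σ', h1.comp h4, by simp [h2, h5], fun v => by
        rw [Units.val_mul, L2_mul, h6, map_smul, h3, smul_smul]; rfl⟩)
  have p1 := h.pf (u := ![1, 0, 0]) (w := ![0, 1, 0]) (by decide) (by decide) (by decide)
  have p2 := h.pf (u := ![0, 1, 0]) (w := ![0, 0, 1]) (by decide) (by decide) (by decide)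
  have n0 := h.n_ne
  have d : ((-7 * β)⁻¹ • (ψ (x ![1, 0, 0] - x ![0, 1, 0]) *
      ψ (τ (x ![0, 1, 0] - x ![0, 0, 1])))).det = 1 := by
    rw [det_smul, det_mul, det_ψ, det_ψ, Pf_τ, p1, p2, Fintype.card_fin]
    generalize -7 * β = n at n0
    field_simp
  let A : GL (Fin 4) F := .mkOfDetNeZero _ (d ▸ one_ne_zero)
  have eA : ∀ v, L2 A.1 (x v) = x (Equiv.swap ![1, 0, 0] ![0, 1, 0]
      (Equiv.swap ![0, 1, 0] ![0, 0, 1] v)) := fun v => by
    change L2 (_ • _) _ = _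
    rw [L2_smul, L2_rot, p1, p2, h.refl (by decide) (by decide) (by decide), Bw_smul,
      mul_smul (7 * β), smul_comm (-7 * β), ← smul_sub, h.refl (by decide) (by decide) (by decide),
      smul_smul, smul_smul]
    convert one_smul F _
    rw [show 7 * β = -(-7 * β) by ring]
    generalize -7 * β = n at n0
    field_simp
  have hle : H ≤ M := fun g hg => by
    obtain ⟨c, Y, hY⟩ := hM g hg
    exact ⟨c, _, mulVec_injective_iff_isUnit.2 ((isUnit_iff_isUnit_det _).2 (by rw [Y.2]; exact isUnit_one)),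
      mulVec_zero _, hY⟩
  rcases hH.2 (M ⊓ K) (le_inf hle hH.1.le) inf_le_right with e | e
  · obtain ⟨c, Y, hY⟩ := hM A (e.le ⟨⟨1, fun v => Equiv.swap ![1, 0, 0] ![0, 1, 0]
      (Equiv.swap ![0, 1, 0] ![0, 0, 1] v), (Equiv.injective _).comp (Equiv.injective _),
      by decide, fun v => by rw [one_smul]; exact eA v⟩, hA A rfl d⟩)
    have k : ∀ v w, Equiv.swap ![1, 0, 0] ![0, 1, 0] (Equiv.swap ![0, 1, 0] ![0, 0, 1] v) = w →
        w ≠ 0 → Y.1 *ᵥ v = w := fun v w e w0 => h.inj w0 (by rw [← hY, eA, e])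
    have := mulVec_add Y.1 ![1, 1, 0] ![0, 0, 1]
    rw [k ![1, 1, 0] ![1, 1, 0] (by decide) (by decide), k ![0, 0, 1] ![1, 0, 0] (by decide) (by decide),
      k _ ![1, 1, 1] (by decide) (by decide)] at this
    exact absurd this (by decide)
  · obtain ⟨c, σ, h1, h2, h3⟩ := (e.ge (hu (.mkOfDetNeZero (rot F) (by simp [det_rot])) rfl)).1
    exact h.no_rot h1 h2 h3

end Sx

end Cfsg.Agent.L4.G
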