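import Cfsg.Agent.L4.GL4

/-!
The normaliser of the double cover of the group of order `168` is not maximal.
-/

set_option autoImplicit false
set_option linter.unusedSectionVars false

namespace Cfsg.Agent.L4.G
open Matrix Subgroup Cfsg.Agent.H1.Spin6 Cfsg.Agent.L4.R Cfsg.Agent.L4.H Cfsg.Geo

variable {F : Type*} [Field F] {k : Type*} [Field k]

theorem ψ_map (ι : F →+* k) (w : Fin 6 → F) : ψ (ι ∘ w) = (ψ w).map ι := by
  ext i j; fin_cases i <;> fin_cases j <;> simp [ψ_def]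

theorem τ_map (ι : F →+* k) (w : Fin 6 → F) : τ (ι ∘ w) = ι ∘ τ w := by
  ext i; fin_cases i <;> simp [τ_def]

theorem L2_mapF (ι : F →+* k) (A : M4 F) (w : Fin 6 → F) : L2 (A.map ι) (ι ∘ w) = ι ∘ L2 A w :=
  ψ_inj (by rw [ψ_L2, ψ_map, ψ_map, ψ_L2, Matrix.map_mul, Matrix.map_mul, transpose_map])

theorem Bw_map (ι : F →+* k) (x y : Fin 6 → F) : Bw (ι ∘ x) (ι ∘ y) = ι (Bw x y) := by simp [Bw]

theorem e2_map (ι : F →+* k) (A : M4 F) : e2 (A.map ι) = ι (e2 A) := by simp [e2]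

theorem comp_zero (ι : F →+* k) {y : Fin 6 → F} (h : ι ∘ y = 0) : y = 0 :=
  funext fun i => ι.injective ((congrFun h i).trans (map_zero ι).symm)

theorem two_tr : ∀ v w : V3, v ≠ 0 → w ≠ 0 → v ≠ w → ∃ u : V3, (of ![v, w, u])ᵀ.det = 1 := by
  decide +kernel

theorem two_tr' {v w : V3} (v0 : v ≠ 0) (w0 : w ≠ 0) (e : v ≠ w) :
    ∃ A : S8, A.1 *ᵥ ![1, 0, 0] = v ∧ A.1 *ᵥ ![0, 1, 0] = w := by
  obtain ⟨u, hu⟩ := two_tr v w v0 w0 e
  refine ⟨⟨_, hu⟩, ?_, ?_⟩ <;> ext i <;> simp [mulVec, dotProduct, Fin.sum_univ_three]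

theorem inj8 (A : S8) : Function.Injective (A.1 *ᵥ ·) :=
  mulVec_injective_iff_isUnit.2 ((isUnit_iff_isUnit_det _).2 (by rw [A.2]; exact isUnit_one))

theorem Bw_sum (y : Fin 6 → F) (f : V3 → Fin 6 → F) : Bw y (∑ u, f u) = ∑ u, Bw y (f u) :=
  map_sum (⟨⟨Bw y, Bw_zero y⟩, Bw_add y⟩ : (Fin 6 → F) →+ F) f _

theorem sum8 {v : V3} (v0 : v ≠ 0) {f : V3 → F} {b : F} (z : f 0 = 0)
    (h : ∀ u, u ≠ 0 → v ≠ u → f u = b) : ∑ u, f u = f v + 6 * b := by
  rw [← Finset.add_sum_erase _ _ (Finset.mem_univ v),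
    ← Finset.add_sum_erase _ _ (Finset.mem_erase.2 ⟨v0.symm, Finset.mem_univ 0⟩), z,
    Finset.sum_congr rfl fun u hu => h u (Finset.ne_of_mem_erase hu)
      (Finset.ne_of_mem_erase (Finset.mem_of_mem_erase hu)).symm, Finset.sum_const,
    Finset.card_erase_of_mem (Finset.mem_erase.2 ⟨v0.symm, Finset.mem_univ 0⟩),
    Finset.card_erase_of_mem (Finset.mem_univ v)]
  simp

variable [Algebra F k] [Finite F] {H P : Subgroup (GL (Fin 4) F)} {π : P →* S8}
  (h : Sg8 (rho k P) π)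
include h

theorem L2_pi {a b : P} (e : π a = π b) : L2 a.1.1 = L2 b.1.1 := by
  obtain ⟨s, s2, hs⟩ := h.pm e
  refine LinearMap.ext fun w => sub_eq_zero.1 (comp_zero (algebraMap F k) ?_)
  have := congrArg (L2 · (algebraMap F k ∘ w)) hs
  simp only [L2_smul, s2, one_smul, rho_def, L2_mapF] at this
  ext i
  simpa [sub_eq_zero] using congrFun this i

theorem fix_zero {y : Fin 6 → F} (e : ∀ g : P, L2 g.1.1 y = y) : y = 0 := by
  by_contra y0
  have y1 : algebraMap F k ∘ y ≠ 0 := fun c => y0 (comp_zero _ c)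
  rcases h.hy.irrW (k ∙ algebraMap F k ∘ y) (fun g x hx => by
    obtain ⟨c, rfl⟩ := Submodule.mem_span_singleton.1 hx
    rwa [map_smul, rho_def, L2_mapF, e]) with f | f
  · exact y1 (Submodule.span_singleton_eq_bot.1 f)
  · have := finrank_span_singleton (K := k) y1
    rw [f] at this
    simp at this

theorem perp_zero {x : V3 → Fin 6 → F} (hx : ∀ (g : P) v, ∃ w, L2 g.1.1 (x v) = x w) {v : V3}
    (h0 : x v ≠ 0) {y : Fin 6 → F} (hy : ∀ v, Bw y (x v) = 0) : y = 0 := by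
  let X : Submodule k (Fin 6 → k) :=
    { carrier := {z | ∀ v, Bw z (algebraMap F k ∘ x v) = 0}
      add_mem' := fun ha hb v => by rw [add_Bw, ha, hb, add_zero]
      zero_mem' := fun v => by simp [Bw]
      smul_mem' := fun c _ ha v => by rw [smul_Bw, ha, mul_zero] }
  rcases h.hy.irrW X (fun g z hz v => by
    obtain ⟨w, hw⟩ := hx g⁻¹ v
    rw [← hz w, ← hw, ← L2_mapF, ← rho_def, ← one_mul (Bw z _), ← h.hy.det g, ← Bw_L2, ← L2_mul,
      (rho_inv g).1, L2_one]) with f | f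
  · exact comp_zero (algebraMap F k) (f.le fun v => by rw [Bw_map, hy, map_zero])
  · exact absurd (comp_zero (algebraMap F k) (Bw_nd fun z =>
      (Bw_comm _ _).trans (f.ge (Submodule.mem_top (x := z)) v))) h0

variable [IsAlgClosed k] (h2 : (2 : F) ≠ 0) (h7 : (7 : F) ≠ 0)
include h2 h7

theorem ne_up : (2 : k) ≠ 0 ∧ (7 : k) ≠ 0 :=
  ⟨fun e => h2 ((algebraMap F k).injective (by rwa [map_ofNat, map_zero])),
    fun e => h7 ((algebraMap F k).injective (by rwa [map_ofNat, map_zero]))⟩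

theorem exists_sx (R : AddSubgroup (Fin 6 → F)) (RL : ∀ g : P, ∀ w ∈ R, L2 g.1.1 w ∈ R)
    (Rex : ∀ T : (Fin 6 → F) →ₗ[F] Fin 6 → F, T ≠ 0 → ∃ w ∈ R, T w ≠ 0) :
    ∃ x β, Sx x β ∧ (∀ v, x v ∈ R) ∧ ∀ (g : P) v, L2 g.1.1 (x v) = x ((π g).1 *ᵥ v) := by
  obtain ⟨k2, k7⟩ := ne_up h h2 h7
  choose s hs using h.sur
  let T : V3 → (Fin 6 → F) →ₗ[F] Fin 6 → F := fun v =>
    ∑ A : S8 with A.1 *ᵥ ![1, 0, 0] = v, L2 (s A).1.1
  obtain ⟨w, hw, w0⟩ := Rex (T ![0, 1, 0]) fun e => by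
    have := congrArg (algebraMap F k ∘ LinearMap.trace F _) e
    simp only [T, Function.comp, map_sum, tr_L2, map_zero, ← e2_map, ← rho_def, h.chi k2 k7,
      hs] at this
    rw [← Int.cast_sum, ch6_sum] at this
    exact mul_ne_zero k2 k2 (by push_cast at this; linear_combination -this)
  have eq : ∀ (g : P) v, L2 g.1.1 (T v w) = T ((π g).1 *ᵥ v) w := fun g v => by
    simp only [T, LinearMap.sum_apply, map_sum]
    refine Finset.sum_equiv (Equiv.mulLeft (π g)) (fun A => ?_) fun A _ => ?_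
    · simp only [Finset.mem_filter, Finset.mem_univ, true_and, Equiv.coe_mulLeft]
      rw [show (π g * A).1 = (π g).1 * A.1 from rfl, ← mulVec_mulVec]
      exact (inj8 _).eq_iff.symm
    · rw [← L2_mul, Equiv.coe_mulLeft, L2_pi h (a := s _) (b := g * s A) (by rw [hs, map_mul, hs])]
      rfl
  have z : T 0 w = 0 := by
    simp only [T, LinearMap.sum_apply]
    exact Finset.sum_eq_zero fun A hA => absurd (inj8 A
      ((Finset.mem_filter.1 hA).2.trans (mulVec_zero _).symm)) (by decide)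
  have hR : ∀ v, T v w ∈ R := fun v => by
    simp only [T, LinearMap.sum_apply]
    exact sum_mem fun A _ => RL _ w hw
  clear_value T
  have inv : ∀ (A : S8) u v, Bw (T (A.1 *ᵥ u) w) (T (A.1 *ᵥ v) w) = Bw (T u w) (T v w) :=
    fun A u v => by
      have d := h.hy.det (s A)
      rw [rho_def, L4.H.det_map, ← map_one (algebraMap F k)] at d
      rw [← hs A, ← eq, ← eq, Bw_L2, (algebraMap F k).injective d, one_mul]
  have off : ∀ u v, u ≠ 0 → v ≠ 0 → u ≠ v →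
      Bw (T u w) (T v w) = Bw (T ![1, 0, 0] w) (T ![0, 1, 0] w) := fun u v u0 v0 e => by
    obtain ⟨A, rfl, rfl⟩ := two_tr' u0 v0 e
    exact inv ..
  have nd : ∀ y, (∀ v, Bw y (T v w) = 0) → y = 0 := fun y hy =>
    perp_zero h (x := fun v => T v w) (fun g v => ⟨_, eq g v⟩) w0 hy
  have dg : ∀ v, v ≠ 0 → Bw (T v w) (T v w) = -6 * Bw (T ![1, 0, 0] w) (T ![0, 1, 0] w) :=
    fun v v0 => by
      have : ∑ u, T u w = 0 := by
        refine fix_zero h fun g => (map_sum (L2 g.1.1) _ _).trans ?_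
        exact Fintype.sum_bijective _ (Finite.injective_iff_bijective.1 (inj8 (π g))) (fun u => L2 g.1.1 (T u w))
          (fun u => T u w) (eq g)
      have e := Bw_sum (T v w) fun u => T u w
      rw [this, Bw_zero, sum8 v0 (by rw [z, Bw_zero]) fun u u0 => off v u v0 u0] at e
      linear_combination -e
  refine ⟨fun v => T v w, _, ⟨h2, h7, fun e => w0 (nd _ fun v => ?_), z, dg, off, nd⟩, hR, eq⟩
  by_cases v0 : v = 0
  · rw [v0, z, Bw_zero]
  by_cases e1 : v = ![0, 1, 0]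
  · rw [e1, dg _ (by decide), e, mul_zero]
  · rw [off _ _ (by decide) v0 (Ne.symm e1), e]

theorem norm_eq (hc : IsResidualCore H P) {g : GL (Fin 4) F} (hg : g ∈ H) :
    ∃ (y : P) (c : F), g.1 = c • y.1.1 := by
  obtain ⟨k2, k7⟩ := ne_up h h2 h7
  let φ : P →* P := ((MulAut.conj g).toMonoidHom.comp P.subtype).codRestrict P
    fun x => hc.normal g hg x x.2
  have e : ∀ x, (φ x).1 = g * x * g⁻¹ := fun _ => rfl
  have sc : ∀ x, π x = 1 ↔ x.1 ∈ scalars (Fin 4) F := fun x => by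
    rw [← mem_subgroupOf, center_eq hc, Rb.center_iff h.hy]
    exact ⟨fun c => (h.ker x c).imp fun _ c => c.2, fun ⟨c, e⟩ => h.sc x c e⟩
  obtain ⟨y, hy⟩ := h.aut k2 k7 φ (fun x => by
    rw [rho_tr, rho_tr, e, Units.val_mul, Units.val_mul, trace_mul_cycle, Units.inv_mul, one_mul])
    fun x => by
      rw [sc, sc, e]
      exact ⟨fun c => scalars_normal.conj_mem _ c g, fun c => by
        simpa [mul_assoc] using scalars_normal.conj_mem _ c g⁻¹⟩
  obtain ⟨c, hc'⟩ := (mem_scalars_iff _).1 (hc.centralizer_scalar (y.1⁻¹ * g)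
    (mul_mem (inv_mem (hc.le y.2)) hg) fun x hx => by
      have := (sc (y⁻¹ * φ ⟨x, hx⟩ * y * (⟨x, hx⟩ : P)⁻¹)).1 (by simp [hy, mul_assoc])
      simpa [e, mul_assoc] using this)
  refine ⟨y, c, ?_⟩
  rw [← mul_inv_cancel_left y.1 g, Units.val_mul, hc', mul_smul_comm, mul_one]

theorem not_max (hc : IsResidualCore H P) {K : Subgroup (GL (Fin 4) F)} (hH : IsMaximalIn K H)
    (R : AddSubgroup (Fin 6 → F)) (RL : ∀ g : P, ∀ w ∈ R, L2 g.1.1 w ∈ R)
    (Rex : ∀ T : (Fin 6 → F) →ₗ[F] Fin 6 → F, T ≠ 0 → ∃ w ∈ R, T w ≠ 0)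
    (hA : ∀ a ∈ R, ∀ b ∈ R, Pf F b = Pf F a → Pf F a ≠ 0 → ∀ A : GL (Fin 4) F,
      A.1 = (Pf F a)⁻¹ • (ψ a * ψ (τ b)) → A.1.det = 1 → A ∈ K)
    (hu : ∀ A : GL (Fin 4) F, A.1 = rot F → A ∈ K) : False := by
  obtain ⟨x, β, s, hR, eq⟩ := exists_sx h h2 h7 R RL Rex
  have p1 := s.pf (u := ![1, 0, 0]) (w := ![0, 1, 0]) (by decide) (by decide) (by decide)
  have p2 := s.pf (u := ![0, 1, 0]) (w := ![0, 0, 1]) (by decide) (by decide) (by decide)
  refine s.nonmax hH (fun g hg => ?_) (fun A e => hA _ (sub_mem (hR _) (hR _)) _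
    (sub_mem (hR _) (hR _)) (p2.trans p1.symm) (p1 ▸ s.n_ne) A (p1 ▸ e)) hu
  obtain ⟨y, c, e⟩ := norm_eq h h2 h7 hc hg
  exact ⟨c * c, π y, fun v => by rw [e, L2_smul, eq]⟩

theorem not_max_lin (hc : IsResidualCore H P) : ¬ IsMaximalIn (specialLinear (Fin 4) F) H :=
  fun hH => not_max h h2 h7 hc hH ⊤ (fun _ _ _ => trivial)
    (fun T hT => by simpa using DFunLike.ne_iff.1 hT) (fun _ _ _ _ _ _ A _ d => Units.ext d)
    fun A e => Units.ext (show A.1.det = 1 by rw [e, det_rot])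

theorem not_max_uni (hc : IsResidualCore H P) {K : Subgroup (GL (Fin 4) F)} (σ : F →+* F)
    (s2 : ∀ a, σ (σ a) = a) (s1 : ∃ a, σ a ≠ a)
    (hK : ∀ g, g ∈ K ↔ g.1.det = 1 ∧ (g.1.map σ)ᵀ * g.1 = 1) : ¬ IsMaximalIn K H := fun hH => by
  let R : AddSubgroup (Fin 6 → F) :=
    { carrier := {w | σ ∘ w = τ w}
      add_mem' := fun {a b} ha hb => by
        change _ = _ at ha hb ⊢
        rw [map_add, ← ha, ← hb]; ext; simp
      zero_mem' := by ext; simp
      neg_mem' := fun {a} ha => by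
        change _ = _ at ha ⊢
        rw [map_neg, ← ha]; ext; simp }
  refine not_max h h2 h7 hc hH R (fun g w hw => ?_) (fun T hT => ?_)
    (fun a ha b hb e n0 A eA d => (hK A).2 ⟨d, ?_⟩) fun A e => (hK A).2 ⟨by rw [e, det_rot], ?_⟩
  · obtain ⟨d, u⟩ := (hK _).1 (hH.1.le (hc.le g.2))
    change _ = _ at hw ⊢
    have u' : g.1.1ᵀ * g.1.1.map σ = 1 := by simpa using congrArg transpose u
    apply ψ_inj
    rw [← L2_mapF, hw, ψ_L2, ← ψτ_L2' d w, ← mul_assoc, ← mul_assoc, mul_eq_one_comm.1 u', one_mul,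
      mul_assoc, mul_eq_one_comm.1 u, mul_one]
  · obtain ⟨w, hw⟩ := DFunLike.ne_iff.1 hT
    obtain ⟨l, hl⟩ := s1
    have m : ∀ w : Fin 6 → F, w + τ (σ ∘ w) ∈ R := fun w => by
      change _ = _
      rw [map_add, ττ, show σ ∘ (w + τ (σ ∘ w)) = σ ∘ w + σ ∘ τ (σ ∘ w) by ext; simp, ← τ_map,
        show σ ∘ σ ∘ w = w by ext; simp [s2], add_comm]
    by_contra! c
    have c1 := c _ (m w)
    have c2 := c _ (m (l • w))
    rw [show σ ∘ (l • w) = σ l • σ ∘ w by ext; simp, map_add, map_smul, map_smul, map_smul] at c2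
    rw [map_add] at c1
    exact hw (smul_right_injective _ (sub_ne_zero.2 hl) (by
      simp only [LinearMap.zero_apply, smul_zero]
      linear_combination (norm := module) σ l • c1 - c2))
  · change _ = _ at ha hb
    have n : σ (Pf F a) = Pf F a := by
      conv_rhs => rw [← Pf_τ, ← ha]
      simp [Pf_apply]
    rw [eA, L4.H.map_smul', Matrix.map_mul, ← ψ_map, ← ψ_map, ← τ_map, ha, hb, ττ, map_inv₀, n,
      transpose_smul, transpose_mul, ψ_tr, ψ_tr, neg_mul_neg, smul_mul_smul_comm, mul_assoc,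
      ← mul_assoc (ψ (τ a)), ψ_sq', smul_mul_assoc, one_mul, mul_smul_comm, ψ_sq, e, smul_smul,
      smul_smul]
    convert one_smul F _
    field_simp
  · rw [e]
    ext i j
    fin_cases i <;> fin_cases j <;> simp [rot, mul_apply, Fin.sum_univ_four]

end Cfsg.Agent.L4.G
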