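import Cfsg.Agent.L4.L0
import Cfsg.Agent.H6.N4
import Cfsg.Agent.H6.MC5
import Cfsg.Agent.O5.G3

/-! Simple subgroups of `PGL₂`, `PGL₃` in characteristic two, and of `S₆`. -/

set_option autoImplicit false

namespace Cfsg.Agent.L4.L2

open Matrix Subgroup OnePoint MulAction Cfsg.Agent.H6 Cfsg.Agent.H6.Pg Cfsg.Agent.H6.M3
open scoped commutatorElement MatrixGroups

variable {Γ : Type*} [Group Γ]

theorem ex_sqrt {K : Type*} [Field K] [Finite K] [CharP K 2] (c : K) : ∃ t : K, t ^ 2 = c :=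
  Finite.surjective_of_injective (frobenius_inj K 2) c

theorem big_of {M K : Type*} [Monoid M] [Field K] [Finite K] [CharP K 2] (h8 : 8 ≤ Nat.card K)
    (L : Γ → M → Prop) (mul : ∀ g h A B, L g A → L h B → L (g * h) (A * B))
    (eq : ∀ g h A, L g A → L h A → g = h) (X : K → M) (hX : ∀ a b, X (a + b) = X a * X b)
    (hin : ∀ a, ∃ g, L g (X a)) (hinj : ∀ a, L 1 (X a) → a = 0)
    (htor : ∀ t, t ≠ 0 → ∃ h T, L h T ∧ ∀ a, T * X a = X (t ^ 2 * a) * T) : Big Γ := by
  choose x hx using hin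
  have h1 : ∀ a b, x (a + b) = x a * x b := fun a b =>
    eq _ _ _ (hx _) (hX a b ▸ mul _ _ _ _ (hx a) (hx b))
  have h0 : x 0 = 1 := by simpa using h1 0 0
  obtain ⟨K', _, _, f, hf, hc⟩ := exists_model' (⊤ : Subfield K)
  have r : K' ≃+* K := RingEquiv.ofBijective f ⟨f.injective, fun y => (hf ▸ Subfield.mem_top y :
    y ∈ f.fieldRange)⟩
  refine ⟨K', inferInstance, inferInstance, r.toRingHom.charP r.injective 2,
    by rwa [hc, FF.card_top], fun a => x (r a), fun a b hab => ?_,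
    fun a b => by simp only [map_add, h1], fun l hl => ?_⟩
  · have := hinj (r a + r b) (by
      have h := hx (r a + r b)
      rwa [h1, show x (r a) = x (r b) from hab, ← h1, CharTwo.add_self_eq_zero, h0] at h)
    exact r.injective (by rwa [CharTwo.add_eq_zero] at this)
  · obtain ⟨t, ht⟩ := ex_sqrt (r l)
    obtain ⟨h, T, h2, h3⟩ := htor t (by rintro rfl; exact hl (by simpa using ht.symm))
    refine ⟨h, fun a => mul_inv_eq_iff_eq_mul.2 ?_⟩
    simp only [map_mul, ← ht]
    exact eq _ _ _ (mul _ _ _ _ h2 (hx _)) (h3 _ ▸ mul _ _ _ _ (hx _) h2)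

theorem card_cases (K : Type*) [Field K] [Finite K] [CharP K 2] :
    Nat.card K = 2 ∨ Nat.card K = 4 ∨ 8 ≤ Nat.card K := by
  obtain ⟨n, h0, hn⟩ := FF.card_eq_pow (F := K) 2
  rw [hn]
  rcases (by omega : n = 1 ∨ n = 2 ∨ 3 ≤ n) with rfl | rfl | h
  · simp
  · simp
  · exact Or.inr (Or.inr (Nat.pow_le_pow_right (n := 2) two_pos h))

theorem perf [IsSimpleGroup Γ] (hna : ¬ ∀ x y : Γ, x * y = y * x) :
    ⁅(⊤ : Subgroup Γ), (⊤ : Subgroup Γ)⁆ = ⊤ :=
  (IsSimpleGroup.eq_bot_or_eq_top_of_normal _ inferInstance).resolve_left fun e =>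
    hna fun x y => commutatorElement_eq_one_iff_mul_comm.1 ((eq_bot_iff_forall _).1 e _
      (commutator_mem_commutator (mem_top x) (mem_top y)))

theorem inj_of [IsSimpleGroup Γ] {Δ : Type*} [Group Δ] (f : Γ →* Δ) (h : ∃ g, f g ≠ 1) :
    Function.Injective f :=
  f.ker_eq_bot_iff.1 ((IsSimpleGroup.eq_bot_or_eq_top_of_normal _ inferInstance).resolve_right
    fun e => h.elim fun g hg => hg (e ▸ mem_top g : g ∈ f.ker))

variable {k : Type*} [Field k]

theorem big_caseK {p : ℕ} [Fact p.Prime] [CharP k p] [IsAlgClosed k] (M : Subgroup PGL(2, k))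
    [Finite M] {x : OnePoint k} (b : ((mobFK k p).subgroup M).Big x) :
    ∃ (h : PGL(2, k)) (L : Subfield k), Finite L ∧ 3 ≤ Nat.card L ∧ PS L ≤ cj h M ∧
      cj h M ≤ PG L := by
  obtain ⟨⟨⟨u, hu⟩, huP⟩, hu1⟩ := (Subgroup.ne_bot_iff_exists_ne_one).1 b.P_ne
  have hu1' : (⟨u, hu⟩ : M) ≠ 1 := fun e => hu1 (Subtype.ext e)
  have hup : u ^ p = 1 := congrArg Subtype.val huP.2
  have hx0 : u • x = x := huP.1
  obtain ⟨⟨g, hg⟩, hgx⟩ : ∃ g : M, g • x ≠ x := by
    by_contra hc
    push Not at hc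
    exact b.ne_top ((Subgroup.eq_top_iff' _).2 hc)
  have h2 : u • g • x ≠ g • x := fun e =>
    hgx (((mobFK k p).subgroup M).not_fix_of_P huP hu1' e)
  rw [Subgroup.mk_smul] at hgx
  obtain ⟨h, rfl, e2, e3⟩ := exists_smul_three (x := x) (y := g • x) (z := u • g • x)
    (Ne.symm hgx) (fun e => hgx (smul_left_cancel u (e.symm.trans hx0.symm))) (Ne.symm h2)
  haveI : Finite (cj h⁻¹ M) := Finite.of_equiv _ (cjEquiv h⁻¹ M).toEquiv
  have b' : ((mobFK k p).subgroup (cj h⁻¹ M)).Big (MulAction.toPerm h⁻¹ (h • ∞)) :=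
    b.congr (cjEquiv h⁻¹ M) (MulAction.toPerm h⁻¹) fun g x => by
      change h⁻¹ • g.1 • x = (h⁻¹ * g * h⁻¹⁻¹) • h⁻¹ • x
      rw [mul_smul, inv_smul_smul, mul_smul]
  rw [MulAction.toPerm_apply, inv_smul_smul] at b'
  refine ⟨h⁻¹, coreK _ b' ?_ (conj_mem_cj.2 hg)
    (by rw [inv_inv, mul_smul, mul_smul, ← e2, inv_smul_smul])⟩
  obtain ⟨a, c, ha, rfl⟩ := exists_aff' hx0
  rw [conj_pow, mul_inv_eq_one, mul_eq_left, aff_pow_char p ha] at hup
  rw [← e2, mul_smul, inv_smul_smul, mul_smul, smul_left_cancel_iff, aff_some ha, coe_eq_coe,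
    mul_zero, zero_add] at e3
  subst hup e3
  rwa [mem_cj, inv_inv]

variable [CharP k 2] [IsAlgClosed k] [Finite Γ] [IsSimpleGroup Γ]

theorem two (hna : ¬ ∀ x y : Γ, x * y = y * x) (j : Γ →* PGL(2, k)) (hj : Function.Injective j) :
    Big Γ ∨ Small Γ := by
  have e0 := MonoidHom.ofInjective hj
  haveI : Finite j.range := Finite.of_equiv _ e0.toEquiv
  have hK : ⁅(⊤ : Subgroup j.range), (⊤ : Subgroup j.range)⁆ = ⊤ := by
    haveI := e0.symm.isSimpleGroup
    exact perf fun h => hna fun x y => e0.injective (by rw [map_mul, map_mul, h])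
  haveI : Nontrivial j.range := e0.toEquiv.symm.nontrivial
  have m := (mobFK k 2).subgroup j.range
  rcases m.dickson with ⟨x, hx⟩ | ⟨x, y, hxy, hx⟩ | ⟨h, -⟩ | ⟨h, -⟩ | ⟨h, -⟩ | ⟨x, b⟩
  · exact absurd (perfect_stab m hK (x := x) fun g _ => (eq_top_iff' _).1 hx g) top_ne_bot
  · refine absurd (perfect_stab m hK (x := x) fun g hg => ?_) top_ne_bot
    have hx := (eq_top_iff' _).1 hx
    have := H9.perfect_fix (X := Prop) (by simp) hK (fun v => v = x ∨ v = y) ?_ (fun v => v = x) ?_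
      hg (Or.inl rfl)
    · simpa using this
    · rintro g - v (rfl | rfl) <;> rcases hx g with ⟨a, b⟩ | ⟨a, b⟩ <;> simp [a, b]
    · rintro g hg v w (rfl | rfl) (rfl | rfl) e
      · rfl
      · exact absurd (e ▸ rfl : w = v).symm hxy
      · exact absurd (e.symm ▸ rfl : v = w).symm hxy
      · rfl
  · omega
  · omega
  · exact absurd rfl h
  obtain ⟨h, L, _, h3, h1, h2⟩ := big_caseK _ b
  rcases card_cases L with h4 | h4 | h4
  · omega
  · have e : PS L = PG L := by rw [PS, S_eq_top (by rw [h4]; decide), PG, MonoidHom.range_eq_map]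
    refine Or.inr (Or.inl (O5.simple60 ?_))
    rw [Nat.card_congr (e0.trans (cjEquiv h _)).toEquiv, le_antisymm h2 (e ▸ h1), card_PG,
      card_PGL h3, h4]
  refine Or.inl (big_of h4 (fun g (A : Matrix (Fin 2) (Fin 2) k) => A.det ≠ 0 ∧ pg A = h * j g * h⁻¹)
    (fun g g' A B hA hB => ⟨by simp [hA.1, hB.1], by rw [← pg_mul hA.1 hB.1, hA.2, hB.2]; simp⟩)
    (fun g g' A hA hB => hj (by simpa using hA.2.symm.trans hB.2)) (fun a => !![1, (a : k); 0, 1])
    (fun a b => by simp [add_comm]) (fun a => ?_) (fun a ha => ?_) fun t ht => ?_)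
  · obtain ⟨_, ⟨g, rfl⟩, e⟩ := h1 (aff_mem_PS a.2)
    exact ⟨g, by simp, e.symm⟩
  · simpa [pg_eq_one ha.1] using ha.2
  · have t0 : (t : k) ≠ 0 := by simpa using ht
    obtain ⟨_, ⟨g, rfl⟩, e⟩ := h1 (mem_PS.2 ⟨!![(t : k), 0; 0, t⁻¹], by simp [t0], fun i j => by
      fin_cases i <;> fin_cases j <;> simp, rfl⟩)
    exact ⟨g, _, ⟨by simp [t0], e.symm⟩, fun a => by simp; field_simp⟩

omit [CharP k 2] [Finite Γ] in
theorem lin_iso {ρ : M3.PR Γ k} (p : ℕ) [Fact p.Prime] [CharP k p]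
    (hna : ¬ ∀ x y : Γ, x * y = y * x) (hi : ρ.NoPt) {K0 : Type*} [Field K0] [Finite K0]
    (e : K0 →+* k) (h : ρ.Lin e.fieldRange) : Nonempty (Γ ≃* PSL(3, K0)) := by
  haveI : CharP K0 p := e.charP e.injective p
  obtain ⟨β, -, hβ⟩ := FF.card_eq_pow (F := K0) p
  set θ := iterateFrobenius k p β
  have hθ : ∀ x, x ∈ e.fieldRange ↔ θ x = x := fun x => by
    rw [mem_range_iff, hβ, iterateFrobenius_def]
  have hq : p ^ β - 1 + 1 = p ^ β := Nat.sub_add_cancel (Nat.pos_of_ne_zero (by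
    rw [← hβ]; exact Nat.card_pos.ne'))
  obtain ⟨f, f1, -, -⟩ := PR.tw_split (ρ := ρ) (fun A η => A.map θ = η • A) (p ^ β - 1)
    (fun g => by
      obtain ⟨A, hA, d⟩ := ρ.ex_det g
      obtain ⟨c, hc, h1⟩ := h.ge A ⟨g, hA⟩
      refine ⟨A, c / θ c, hA, d, smul_right_injective _ ((map_ne_zero θ).2 hc) ?_⟩
      simp only
      rw [← M3.map_smul', smul_smul, mul_div_cancel₀ _ ((map_ne_zero θ).2 hc)]
      ext i j; exact (hθ _).1 (h1 i j))
    (fun A B η η' h1 h2 => by rw [Matrix.map_mul, h1, h2, smul_mul_smul_comm])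
    (fun A η d h1 => by simpa [M3.det_map, d] using (congrArg Matrix.det h1).symm)
    (fun A η c h1 => by
      rw [M3.map_smul', h1, smul_smul, smul_smul, iterateFrobenius_def, ← hq, pow_succ,
        Nat.add_sub_cancel, mul_right_comm])
    (fun A η η' d h1 h2 => smul_cancel (by simp [d]) (h1.symm.trans h2))
  exact PR.iso_center (ρ := ρ) (e.mapMatrix.toMonoidHom.comp (slToMat 3 K0))
    (fun a b hab => Subtype.ext (M3.map_inj e hab)) hi (fun g => by
      obtain ⟨A, h1, h2, h3⟩ := f1 g (MG.hom_one hna f g)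
      choose y hy using fun i j => (hθ (A i j)).2 (by simpa using congrFun (congrFun h3 i) j)
      obtain rfl : A = (Matrix.of y).map e := by ext i j; exact (hy i j).symm
      exact ⟨⟨Matrix.of y, e.injective (by rw [← M3.det_map, h2, map_one])⟩, h1⟩) fun y =>
      h.le (y.1.map e) (fun i j => ⟨_, rfl⟩) (by rw [M3.det_map, y.2, map_one])

omit [CharP k 2] [Finite Γ] in
theorem uni_iso {ρ : M3.PR Γ k} (p : ℕ) [Fact p.Prime] [CharP k p]
    (hna : ¬ ∀ x y : Γ, x * y = y * x) (hi : ρ.NoPt) {n : ℕ} {K0 : Type*} [Field K0] [Finite K0]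
    (e : K0 →+* k) (hβ : Nat.card K0 = p ^ (2 * n)) (h : ρ.Uni (iterateFrobenius k p n)) :
    Nonempty (Γ ≃* PSU 3 K0 (p ^ n)) := by
  haveI : CharP K0 p := e.charP e.injective p
  set σ := iterateFrobenius k p n
  have hσ : ∀ x, σ (σ x) = x ^ p ^ (2 * n) := fun x => by
    rw [iterateFrobenius_def, iterateFrobenius_def, ← pow_mul, ← pow_add, two_mul]
  have hθ : ∀ x, x ∈ e.fieldRange ↔ σ (σ x) = x := fun x => by rw [mem_range_iff, hβ, hσ]
  obtain ⟨f, f1, -, -⟩ := PR.tw_split (ρ := ρ) (fun A η => (A.map σ)ᵀ * A = η • 1) (p ^ n + 1)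
    (fun g => by
      obtain ⟨A, hA, d⟩ := ρ.ex_det g
      obtain ⟨c, hc, h1⟩ := h.ge A ⟨g, hA⟩
      have h2 := mul_ne_zero ((map_ne_zero σ).2 hc) hc
      refine ⟨A, (σ c * c)⁻¹, hA, d, smul_right_injective _ h2 ?_⟩
      simp only
      rw [smul_smul, mul_inv_cancel₀ h2, one_smul, ← h1, M3.map_smul', transpose_smul,
        smul_mul_smul_comm])
    (fun A B η η' h1 h2 => by
      rw [Matrix.map_mul, transpose_mul, mul_assoc, ← mul_assoc _ A, h1, smul_mul_assoc, one_mul,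
        mul_smul_comm, h2, smul_smul])
    (fun A η d h1 => by simpa [M3.det_map, d] using (congrArg Matrix.det h1).symm)
    (fun A η c h1 => by
      rw [M3.map_smul', transpose_smul, smul_mul_smul_comm, h1, smul_smul, iterateFrobenius_def,
        pow_succ])
    (fun A η η' d h1 h2 => smul_cancel (A := 1) (by simp) (h1.symm.trans h2))
  have hm : ∀ y : M3.Mt K0, (y.map (iterateFrobenius _ p n))ᵀ * y = 1 ↔
      ((y.map e).map σ)ᵀ * y.map e = (1 : k) • 1 := fun y => by
    rw [show (y.map e).map σ = (y.map (iterateFrobenius _ p n)).map e by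
      ext i j; simp [σ, iterateFrobenius_def], ← transpose_map (f := e), ← Matrix.map_mul, one_smul,
      ← M3.map_one' e]
    exact ⟨fun h => by rw [h], M3.map_inj e⟩
  exact PR.iso_center (ρ := ρ)
    (e.mapMatrix.toMonoidHom.comp ((slToMat 3 _).comp (Cfsg.SU 3 _ (p ^ n)).subtype))
    (fun a b hab => Subtype.ext (Subtype.ext (M3.map_inj e hab))) hi (fun g => by
      obtain ⟨A, h1, h2, h3⟩ := f1 g (MG.hom_one hna f g)
      obtain ⟨h4, h5⟩ := tw_uni h2 h3
      choose y hy using fun i j => (hθ (A i j)).2 (by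
        have e1 := congrFun (congrFun h4 i) j
        have e2 := congrFun (congrFun h5 j) i
        simp only [map_apply, one_smul, one_pow, transpose_apply] at e1 e2
        rw [e1, e2])
      obtain rfl : A = (Matrix.of y).map e := by ext i j; exact (hy i j).symm
      exact ⟨⟨⟨Matrix.of y, e.injective (by rw [← M3.det_map, h2, map_one])⟩,
        (herm_iff p n _).2 ((hm _).2 h3)⟩, h1⟩) fun y =>
      h.le (y.1.1.map e) (by rw [M3.det_map, y.1.2, map_one])
        (by rw [← one_smul k (1 : M3.Mt k)]; exact (hm _).1 ((herm_iff p n _).1 y.2))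

theorem ex_gal (n : ℕ) (hn : n ≠ 0) : ∃ (K : Type) (_ : Field K) (_ : Fintype K) (_ : K →+* k),
    Nat.card K = 2 ^ n := by
  letI := ZMod.algebra k 2
  exact ⟨GaloisField 2 n, inferInstance, Fintype.ofFinite _,
    (IsAlgClosed.lift : GaloisField 2 n →ₐ[ZMod 2] k).toRingHom, GaloisField.card 2 n hn⟩

theorem ex_tr (n : ℕ) (hn : n ≠ 0) : ∃ x : k, iterateFrobenius k 2 n x = 1 + x := by
  have h : 1 < 2 ^ n := Nat.one_lt_two_pow hn
  obtain ⟨x, hx⟩ := IsAlgClosed.exists_root (Polynomial.X ^ 2 ^ n - (1 + Polynomial.X) : Polynomial k)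
    (by
      rw [Polynomial.degree_sub_eq_left_of_degree_lt, Polynomial.degree_X_pow]
      · exact_mod_cast (by omega : 2 ^ n ≠ 0)
      · rw [Polynomial.degree_X_pow, add_comm, ← Polynomial.C_1, Polynomial.degree_X_add_C]
        exact_mod_cast h)
  exact ⟨x, by simpa [iterateFrobenius_def, sub_eq_zero] using hx⟩

omit [CharP k 2] [IsAlgClosed k] in
theorem map3 (σ : k →+* k) (a b c d e f g h i : k) : (!![a, b, c; d, e, f; g, h, i]).map σ =
    !![σ a, σ b, σ c; σ d, σ e, σ f; σ g, σ h, σ i] := by simp [eq9]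

theorem three (hna : ¬ ∀ x y : Γ, x * y = y * x) (ρ : M3.PR Γ k) : Big Γ ∨ Small Γ := by
  have two := CharTwo.two_eq_zero (R := k)
  by_cases hi : ρ.Irr
  swap
  · obtain ⟨j, hj⟩ := PR.red (fun N hN hc => (hN.eq_bot_or_eq_top).resolve_right fun e =>
      hna fun x y => hc x (e ▸ mem_top x) y (e ▸ mem_top y)) hi
    exact L2.two hna j hj
  rcases PR.trich_two hna hi with ⟨B, B', hB, F0, h⟩ | ⟨n, hn, B, B', hB, h⟩ | h
  · have hi := (hi.cj hB).pt
    generalize ρ.cj hB = τ at h hi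
    haveI := h.fin
    rcases card_cases F0 with h4 | h4 | h4
    · letI := ZMod.algebra k 2
      refine Or.inr (Or.inr (Or.inr (Or.inr (Or.inl (lin_iso 2 hna hi (algebraMap (ZMod 2) k) ?_)))))
      convert h
      ext x
      rw [mem_range_iff, mem_iff_pow, h4, Nat.card_zmod]
    · obtain ⟨K, _, _, e, rfl, hc⟩ := exists_model' F0
      exact Or.inr (Or.inr (Or.inr (Or.inr (Or.inr (Or.inl ⟨K, _, _, hc.trans h4,
        lin_iso 2 hna hi e h⟩)))))
    refine Or.inl (big_of h4 τ.L (fun _ _ _ _ => τ.mul) (fun _ _ _ => τ.eq_of)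
      (fun a => !![1, (a : k), 0; 0, 1, 0; 0, 0, 1]) (fun a b => by simp [add_comm])
      (fun a => h.le _ (fun i j => by fin_cases i <;> fin_cases j <;> simp) (by simp [dm3]))
      (fun a ha => ?_) fun t ht => ?_)
    · obtain ⟨c, hc⟩ := (τ.eq_one_iff ha).1 rfl
      simpa using congrFun (congrFun hc 0) 1
    · have t0 : (t : k) ≠ 0 := by simpa using ht
      obtain ⟨g, hg⟩ := h.le !![(t : k), 0, 0; 0, t⁻¹, 0; 0, 0, 1]
        (fun i j => by fin_cases i <;> fin_cases j <;> simp) (by simp [dm3, t0])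
      exact ⟨g, _, hg, fun a => by simp; field_simp⟩
  · have hi := (hi.cj hB).pt
    generalize ρ.cj hB = τ at h hi
    rcases (by omega : n = 0 ∨ n = 1 ∨ n = 2 ∨ 3 ≤ n) with rfl | rfl | rfl | h3
    · omega
    · omega
    · obtain ⟨K, _, _, e, hc⟩ := ex_gal (k := k) 4 (by omega)
      exact Or.inr (Or.inr (Or.inr (Or.inr (Or.inr (Or.inr (Or.inl ⟨K, _, _,
        Nat.card_eq_fintype_card.symm.trans hc, uni_iso (n := 2) 2 hna hi e hc h⟩))))))
    obtain ⟨K, _, _, e, hc⟩ := ex_gal (k := k) n (by omega)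
    haveI : CharP K 2 := e.charP e.injective 2
    obtain ⟨x, hx⟩ := ex_tr (k := k) n (by omega)
    have he : ∀ a, iterateFrobenius k 2 n (e a) = e a := fun a => by
      rw [iterateFrobenius_def, ← hc]; exact (mem_range_iff e).1 ⟨a, rfl⟩
    generalize iterateFrobenius k 2 n = σ at *
    refine Or.inl (big_of (K := K) (hc ▸ Nat.pow_le_pow_right (n := 2) two_pos h3) τ.L
      (fun _ _ _ _ => τ.mul) (fun _ _ _ => τ.eq_of)
      (fun a => !![1 + e a, e a, 0; e a, 1 + e a, 0; 0, 0, 1])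
      (fun a b => by simp only [mul_fin_three, em3, map_add]; grind)
      (fun a => h.le _ (by rw [dm3]; grind) (by
        simp only [map3, tm3, mul_fin_three, one_fin_three, em3, map_add, map_one, map_zero, he]
        grind))
      (fun a ha => ?_) fun t ht => ?_)
    · obtain ⟨c, hc⟩ := (τ.eq_one_iff ha).1 rfl
      simpa using congrFun (congrFun hc 0) 1
    · obtain ⟨s, hs⟩ : ∃ s, e t * e s = 1 := ⟨t⁻¹, by rw [← map_mul, mul_inv_cancel₀ ht, map_one]⟩
      obtain ⟨g, hg⟩ := h.le !![e t * (1 + x) + e s * x, (e t + e s) * x, 0;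
        (e t + e s) * (1 + x), e t * x + e s * (1 + x), 0; 0, 0, 1] (by rw [dm3]; grind) (by
        simp only [map3, tm3, mul_fin_three, one_fin_three, em3, map_add, map_mul, map_one,
          map_zero, he, hx]
        grind)
      exact ⟨g, _, hg, fun a => by simp only [mul_fin_three, em3, map_mul, map_pow]; grind⟩
  · exact Or.inr (Or.inr (Or.inl h.iso))

theorem sub_s6 (hna : ¬ ∀ x y : Γ, x * y = y * x) (j : Γ →* Equiv.Perm (Fin 6))
    (hj : Function.Injective j) : Small Γ := by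
  have h2 : j.range ≤ alternatingGroup _ := by
    rintro _ ⟨g, rfl⟩
    exact MG.hom_one hna (Equiv.Perm.sign.comp j) g
  have c6 : Nat.card (alternatingGroup (Fin 6)) = 360 := by
    have := two_mul_nat_card_alternatingGroup (α := Fin 6)
    rw [Nat.card_perm, Nat.card_fin] at this
    simp only [Nat.factorial] at this; omega
  have e := (MonoidHom.ofInjective hj).trans (subgroupOfEquivOfLe h2).symm
  generalize j.range.subgroupOf (alternatingGroup (Fin 6)) = R at e
  by_cases hR : R = ⊤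
  · exact Or.inr (Or.inl ⟨e.trans ((MulEquiv.subgroupCongr hR).trans topEquiv)⟩)
  haveI : IsSimpleGroup (alternatingGroup (Fin 6)) := alternatingGroup.isSimpleGroup (by simp)
  have h3 := O5.card_dvd_fact hR
  have h4 := R.card_mul_index
  rw [c6] at h3 h4
  rw [← Nat.card_congr e.toEquiv] at h4
  have h6 : 6 ≤ R.index := by
    by_contra hc
    generalize R.index = n at *
    interval_cases n <;> simp [Nat.factorial] at h3 h4
  have idx : ∀ K : Subgroup Γ, K ≠ ⊤ → 5 ≤ K.index := fun K hK => by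
    by_contra hc
    exact hK (H2.Zass.eq_top_of_index_le (perf hna) K (by omega))
  have key : ∀ p n : ℕ, p.Prime → p ^ n ∣ Nat.card Γ → 5 * p ^ n ≤ Nat.card Γ := fun p n hp hd => by
    haveI := Fact.mk hp
    obtain ⟨K, hK⟩ := Sylow.exists_subgroup_card_pow_prime p hd
    rw [← hK, ← K.index_mul_card]
    refine Nat.mul_le_mul_right _ (idx K ?_)
    rintro rfl
    haveI := (IsPGroup.of_card (card_top.symm.trans hK)).isNilpotent
    exact hna fun x y => IsSimpleGroup.comm_iff_isSolvable.2 inferInstance x y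
  have k0 := key 2 0 (by norm_num)
  have k1 := key 2 1 (by norm_num)
  have k2 := key 2 2 (by norm_num)
  have k3 := key 2 3 (by norm_num)
  have k4 := key 3 1 (by norm_num)
  have k5 := key 3 2 (by norm_num)
  have k6 := key 5 1 (by norm_num)
  have h7 : Nat.card Γ ≤ 60 := by nlinarith
  have h8 : Nat.card Γ ∣ 360 := ⟨_, h4.symm⟩
  have h9 : Nat.card Γ = 30 ∨ Nat.card Γ = 40 ∨ Nat.card Γ = 45 ∨ Nat.card Γ = 60 := by
    generalize Nat.card Γ = n at *
    clear h4 key
    interval_cases n <;> omega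
  refine Or.inl (O5.simple60 ?_)
  by_contra h60
  obtain ⟨P⟩ : Nonempty (Sylow 5 Γ) := inferInstance
  have p1 := card_sylow_modEq_one 5 Γ
  rw [P.card_eq_index_normalizer] at p1
  have p5 : 5 ∣ Nat.card Γ := by omega
  have p2 : normalizer (P : Set Γ) ≠ ⊤ := fun e => by
    rcases (normalizer_eq_top_iff.1 e).eq_bot_or_eq_top with e | e
    · exact P.ne_bot_of_dvd_card p5 e
    · haveI := (P.isPGroup'.of_equiv ((MulEquiv.subgroupCongr e).trans topEquiv)).isNilpotent
      exact hna fun x y => IsSimpleGroup.comm_iff_isSolvable.2 inferInstance x y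
  have p3 := idx _ p2
  have p4 : 5 ∣ Nat.card (normalizer (P : Set Γ)) :=
    (P.dvd_card_of_dvd_card p5).trans (card_dvd_of_le le_normalizer)
  have p6 := (normalizer (P : Set Γ)).card_mul_index
  obtain ⟨m, hm⟩ := p4
  have p7 : Nat.card (normalizer (P : Set Γ)) = 5 := by
    rw [hm] at p6 ⊢
    unfold Nat.ModEq at p1
    generalize (normalizer (P : Set Γ)).index = n at *
    have : 6 ≤ n := by omega
    have : Nat.card Γ < 60 := by omega
    have : m ≤ 1 := by nlinarith
    interval_cases m <;> omega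
  haveI := isCyclic_of_prime_card p7
  exact MG.burnside hna P p5 fun a ha b hb => congrArg Subtype.val
    (mul_comm' (⟨b, le_normalizer hb⟩ : normalizer (P : Set Γ)) ⟨a, ha⟩)

end Cfsg.Agent.L4.L2
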