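import Cfsg.Agent.L4.L1

/-! The reducible case; passage to a finite field. -/

set_option autoImplicit false

namespace Cfsg.Agent.L4.L2

open Matrix Subgroup Module Cfsg.Agent.L4.H
open scoped MatrixGroups

variable {Γ : Type*} [Group Γ] [IsSimpleGroup Γ] {k : Type*} [Field k]

theorem inj_mon {M : Type*} [Monoid M] (f : Γ →* M) (h : ∃ g, f g ≠ 1) : Function.Injective f :=
  fun _ _ e => inj_of f.toHomUnits (h.imp fun _ h e => h (congrArg Units.val e)) (Units.ext e)

theorem center_one (hna : ¬ ∀ x y : Γ, x * y = y * x) {g : Γ} (h : ∀ y, y * g = g * y) : g = 1 := by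
  rcases IsSimpleGroup.eq_bot_or_eq_top_of_normal (center Γ) inferInstance with e | e
  · exact (eq_bot_iff_forall _).1 e g (mem_center_iff.2 h)
  · exact absurd (fun x y => mem_center_iff.1 (e ▸ mem_top y) x) hna

theorem scal_iff (hna : ¬ ∀ x y : Γ, x * y = y * x) {n : Type*} [Fintype n] [DecidableEq n]
    {m : Γ →* Matrix n n k} (hm : Function.Injective m) (x : Γ) :
    x = 1 ↔ ∃ c : k, m x = c • 1 :=
  ⟨by rintro rfl; exact ⟨1, by simp⟩, fun ⟨c, hc⟩ => center_one hna fun y => hm (by simp [hc])⟩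

theorem ex_ne {M : Type*} [Monoid M] {m : Γ →* M} (hm : Function.Injective m) : ∃ g, m g ≠ 1 :=
  (exists_ne (1 : Γ)).imp fun _ h e => h (hm (e.trans m.map_one.symm))

variable [Finite Γ] [CharP k 2]

theorem mat3 (hna : ¬ ∀ x y : Γ, x * y = y * x) (m : Γ →* Matrix (Fin 3) (Fin 3) k)
    (hm : Function.Injective m) : Big Γ ∨ Small Γ :=
  three (k := AlgebraicClosure k) hna (H6.M3.PR.ofHom
    ((algebraMap k _).mapMatrix.toMonoidHom.comp m) (MonoidHom.id Γ) Function.surjective_id
    (scal_iff hna fun _ _ e => hm (H6.M3.map_inj _ e)))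

theorem low (hna : ¬ ∀ x y : Γ, x * y = y * x) {V : Type*} [AddCommGroup V] [Module k V]
    [FiniteDimensional k V] (hV : finrank k V ≤ 3) (φ : Γ →* Module.End k V) (h : ∃ g, φ g ≠ 1) :
    Big Γ ∨ Small Γ := by
  let b := Module.finBasisOfFinrankEq k (V × (Fin (3 - finrank k V) → k)) (n := 3) (by simp; omega)
  refine mat3 hna ((LinearMap.toMatrixAlgEquiv b).toMonoidHom.comp
    ((LinearMap.prodMapRingHom k V _).toMonoidHom.comp (φ.prod 1))) fun x y e => ?_
  have := (LinearMap.toMatrixAlgEquiv b).injective e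
  exact inj_mon φ h (LinearMap.ext fun v => congrArg Prod.fst (LinearMap.congr_fun this (v, 0)))

theorem red (hna : ¬ ∀ x y : Γ, x * y = y * x) (m : Γ →* Mt k) (hm : Function.Injective m)
    {W : Submodule k (Vc k)} (hW : ∀ g, ∀ v ∈ W, m g *ᵥ v ∈ W) (h0 : W ≠ ⊥) (h1 : W ≠ ⊤) :
    Big Γ ∨ Small Γ := by
  let ρ : Representation k Γ (Vc k) := (Matrix.toLinAlgEquiv' (R := k)).toMonoidHom.comp m
  have hρ : ∀ g v, ρ g v = m g *ᵥ v := fun g v => rfl
  have h2 := Submodule.finrank_lt h1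
  have h3 := W.finrank_quotient_add_finrank
  have h4 : finrank k W ≠ 0 := fun e => h0 (Submodule.finrank_eq_zero.1 e)
  simp only [finrank_fintype_fun_eq_card, Fintype.card_fin] at h2 h3
  by_cases a : ∃ g, ρ.subrepresentation W hW g ≠ 1
  · exact low hna (by omega) _ a
  by_cases b : ∃ g, ρ.quotient W hW g ≠ 1
  · exact low hna (by omega) _ b
  push Not at a b
  have a' : ∀ g, ∀ v ∈ W, m g *ᵥ v = v := fun g v hv =>
    congrArg Subtype.val (LinearMap.congr_fun (a g) ⟨v, hv⟩)
  have b' : ∀ g v, m g *ᵥ v - v ∈ W := fun g v =>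
    (Submodule.Quotient.eq W).1 (LinearMap.congr_fun (b g) (Submodule.Quotient.mk v))
  refine absurd (fun x y => hm (Matrix.ext_of_mulVec_single fun i => ?_)) hna
  have e1 := a' x _ (b' y (Pi.single i 1))
  have e2 := a' y _ (b' x (Pi.single i 1))
  rw [mulVec_sub, mulVec_mulVec, sub_eq_iff_eq_add] at e1 e2
  rw [map_mul, map_mul, e1, e2]; abel

theorem comm_case (hna : ¬ ∀ x y : Γ, x * y = y * x) (m : Γ →* Mt k) (hm : Function.Injective m)
    {M : Mt k} (hM : ∀ g, M * m g = m g * M) (h : ∀ c : k, M ≠ c • 1) : Big Γ ∨ Small Γ := by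
  let ι := algebraMap k (AlgebraicClosure k)
  obtain ⟨c, hc⟩ := Module.End.exists_eigenvalue (M.map ι).mulVecLin
  refine red hna (ι.mapMatrix.toMonoidHom.comp m) (fun _ _ e => hm (map_inj ι e))
    (W := Module.End.eigenspace (M.map ι).mulVecLin c) (fun g v hv => ?_) hc fun e => ?_
  · rw [Module.End.mem_eigenspace_iff, mulVecLin_apply] at hv ⊢
    change _ *ᵥ (m g).map ι *ᵥ v = c • (m g).map ι *ᵥ v
    rw [mulVec_mulVec, ← Matrix.map_mul, hM, Matrix.map_mul, ← mulVec_mulVec, hv, mulVec_smul]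
  · obtain ⟨c', -, h2⟩ := exists_scal ι (A := 1) (B := M) (c := c) one_ne_zero (by
      refine Matrix.ext_of_mulVec_single fun i => ?_
      rw [map_one', smul_mulVec, one_mulVec]
      exact Module.End.mem_eigenspace_iff.1 (e ▸ Submodule.mem_top))
    exact h c' h2

omit [CharP k 2] in
theorem ex_odd (hna : ¬ ∀ x y : Γ, x * y = y * x) : ∃ g : Γ, g ≠ 1 ∧ Odd (orderOf g) := by
  by_contra hc
  push Not at hc
  haveI : Group.IsNilpotent Γ := IsPGroup.isNilpotent (p := 2) fun g => by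
    obtain ⟨a, r, hr, e⟩ := Nat.exists_eq_two_pow_mul_odd (orderOf_pos g).ne'
    refine ⟨a, by_contra fun h => hc _ h ?_⟩
    rwa [orderOf_pow_of_dvd (by positivity) ⟨r, e⟩, e, Nat.mul_div_cancel_left _ (by positivity)]
  exact hna fun x y => IsSimpleGroup.comm_iff_isSolvable.2 inferInstance x y

theorem ex_fin (hna : ¬ ∀ x y : Γ, x * y = y * x) (m : Γ →* Mt k) (hm : Function.Injective m) :
    ∃ (F : Type) (_ : Field F) (_ : Fintype F) (_ : CharP F 2) (m' : Γ →* Mt F),
      Function.Injective m' := by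
  letI := ZMod.algebra k 2
  let S : Set k := Set.range fun x : Γ × Fin 4 × Fin 4 => m x.1 x.2.1 x.2.2
  let A := Algebra.adjoin (ZMod 2) S
  haveI : Algebra.FiniteType (ZMod 2) A := (Subalgebra.fg_iff_finiteType _).1
    (Subalgebra.fg_def.2 ⟨S, Set.finite_range _, rfl⟩)
  obtain ⟨I, hI⟩ := Ideal.exists_maximal A
  letI := Ideal.Quotient.field I
  haveI := finite_of_finite_type_of_isJacobsonRing (ZMod 2) (A ⧸ I)
  haveI : Finite (A ⧸ I) := Module.finite_of_finite (ZMod 2)
  haveI : CharP (A ⧸ I) 2 := charP_of_injective_algebraMap (algebraMap (ZMod 2) _).injective 2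
  have hi : ∀ X Y : Matrix (Fin 4) (Fin 4) A, X.map A.val.toRingHom = Y.map A.val.toRingHom → X = Y :=
    fun X Y => (Matrix.map_injective Subtype.val_injective ·)
  let a : Γ → Matrix (Fin 4) (Fin 4) A := fun g i j => ⟨m g i j, Algebra.subset_adjoin ⟨(g, i, j), rfl⟩⟩
  have ha : ∀ g, (a g).map A.val.toRingHom = m g := fun g => rfl
  let mA : Γ →* Matrix (Fin 4) (Fin 4) A :=
    { toFun := a
      map_one' := hi _ _ (by rw [ha, map_one, Matrix.map_one _ (map_zero _) (map_one _)])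
      map_mul' := fun x y => hi _ _ (by rw [Matrix.map_mul, ha, ha, ha, map_mul]) }
  obtain ⟨K, _, _, f, hf, -⟩ := H6.M3.exists_model' (⊤ : Subfield (A ⧸ I))
  let r : K ≃+* (A ⧸ I) := RingEquiv.ofBijective f ⟨f.injective, fun y =>
    (hf ▸ Subfield.mem_top y : y ∈ f.fieldRange)⟩
  let π : A →+* K := r.symm.toRingHom.comp (Ideal.Quotient.mk I)
  haveI : CharP K 2 := f.charP f.injective 2
  refine ⟨K, inferInstance, inferInstance, inferInstance, π.mapMatrix.toMonoidHom.comp mA,
    inj_mon _ ?_⟩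
  obtain ⟨g, h1, n, hn⟩ := ex_odd hna
  refine ⟨g, fun e => h1 (hm ?_)⟩
  have e1 := mul_geom_sum (mA g) (orderOf g)
  rw [← map_pow, pow_orderOf_eq_one, map_one, sub_self] at e1
  have e2 : π.mapMatrix (∑ i ∈ Finset.range (orderOf g), mA g ^ i) = 1 := by
    simp only [map_sum, map_pow, show π.mapMatrix (mA g) = 1 from e, one_pow, Finset.sum_const,
      Finset.card_range, hn, add_smul, mul_smul, one_smul, two_smul]
    ext i j; simp [CharTwo.add_self_eq_zero]
  generalize ∑ i ∈ Finset.range (orderOf g), mA g ^ i = N at e1 e2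
  have e3 : N.det ≠ 0 := fun e => by
    have := π.map_det N
    rw [e, e2] at this
    simp at this
  have e4 := congrArg (· * N.adjugate) e1
  simp only [mul_assoc, mul_adjugate, zero_mul, mul_smul_comm, mul_one, smul_eq_zero, e3,
    false_or, sub_eq_zero] at e4
  rw [← ha, ← ha, show a g = a 1 from e4.trans mA.map_one.symm]

end Cfsg.Agent.L4.L2
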