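import Cfsg.Agent.L4.La
import Cfsg.Agent.Sp4E.Glue
import Cfsg.Agent.Asch.Perp
import Cfsg.Agent.Asch.FormC5

/-! Large root groups in `SL₄`, `SU₄`, `Sp₄` and `Sz`. -/

set_option autoImplicit false

namespace Cfsg.Agent.L4.L2

open Matrix Subgroup Module Cfsg.Agent.L4.H
open scoped MatrixGroups

variable {Γ : Type*} [Group Γ] {F : Type*} [Field F] [Finite F] [CharP F 2]

theorem big_hom {M : Type*} [Monoid M] (h8 : 8 ≤ Nat.card F) (m : Γ →* M)
    (hm : Function.Injective m) (X : F → M) (hX : ∀ a b, X (a + b) = X a * X b)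
    (hin : ∀ a, ∃ g, m g = X a) (hinj : ∀ a, X a = 1 → a = 0)
    (htor : ∀ t, t ≠ 0 → ∃ h, ∀ a, m h * X a = X (t ^ 2 * a) * m h) : Big Γ :=
  big_of h8 (fun g A => m g = A) (by rintro g h _ _ rfl rfl; exact map_mul _ _ _)
    (fun _ _ _ a b => hm (a.trans b.symm)) X hX hin (fun a h => hinj a (h.symm.trans m.map_one))
    fun t ht => (htor t ht).imp fun _ h => ⟨_, rfl, h⟩

theorem big_sl (m : Γ →* Mt F) (hm : Function.Injective m)
    (h : ∀ A : Mt F, A.det = 1 → ∃ g, m g = A) : Big Γ := by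
  let E := FiniteField.Extension F 2 3
  haveI : CharP E 2 := charP_of_injective_algebraMap (algebraMap F E).injective 2
  let b := Module.finBasisOfFinrankEq F E (FiniteField.finrank_extension F 2 3)
  let r := Matrix.reindexAlgEquiv F F (finSumFinEquiv (m := 3) (n := 1))
  have h' : ∀ A : Matrix (Fin 3 ⊕ Fin 1) (Fin 3 ⊕ Fin 1) F, A.det = 1 → ∃ g, r.symm (m g) = A :=
    fun A d => (h (r A) (by rw [← d]; exact det_reindex_self _ _)).imp fun g e => by
      rw [e, r.symm_apply_apply]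
  refine big_hom (F := E) ?_ (r.symm.toMonoidHom.comp m) (r.symm.injective.comp hm)
    (fun a => fromBlocks 1 (replicateCol (Fin 1) (b.repr a)) 0 1)
    (fun a a' => by simp [fromBlocks_multiply, add_comm]) (fun a => h' _ (by simp))
    (fun a e => ?_) fun t ht => ?_
  · rw [FiniteField.natCard_extension]
    exact Nat.pow_le_pow_left (Finite.one_lt_card (α := F)) 3
  · exact b.ext_elem fun i => by simpa using congrFun (congrFun e (Sum.inl i)) (Sum.inr 0)
  · obtain ⟨c, hc⟩ := ex_sqrt (Algebra.norm F t)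
    have c0 : c ≠ 0 := by
      rintro rfl
      exact ht (by simpa using hc.symm)
    have e : Algebra.norm F (algebraMap F E c⁻¹ * t ^ 2) = c := by
      rw [map_mul, map_pow, ← hc, Algebra.norm_algebraMap, FiniteField.finrank_extension]
      field_simp
    obtain ⟨g, hg⟩ := h' (fromBlocks (Algebra.leftMulMatrix b (algebraMap F E c⁻¹ * t ^ 2)) 0 0
      (c⁻¹ • 1)) (by simp [← Algebra.norm_eq_matrix_det, e, c0, -map_mul, -map_inv₀])
    refine ⟨g, fun a => ?_⟩
    rw [show (r.symm.toMonoidHom.comp m) g = _ from hg]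
    simp only [fromBlocks_multiply, Matrix.mul_one, Matrix.one_mul, Matrix.mul_zero,
      Matrix.zero_mul, add_zero, zero_add, ← replicateCol_mulVec, Algebra.leftMulMatrix_mulVec_repr,
      Matrix.mul_smul]
    congr 1
    · ext i j
      simp [mul_assoc, ← Algebra.smul_def, -map_inv₀]
    · simp

theorem big_su (h8 : 8 ≤ Nat.card F) (σ : F →+* F) (hσ : ∀ a, σ (σ a) = a) {x : F}
    (hx : σ x = 1 + x) (m : Γ →* Mt F) (hm : Function.Injective m)
    (h : ∀ A : Mt F, A.det = 1 → Aᵀ * A.map σ = 1 → ∃ g, m g = A) : Big Γ := by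
  have two := CharTwo.two_eq_zero (R := F)
  refine big_hom h8 m hm (fun a => !![1, 0, a, a; 0, 1, a, a; σ a, σ a, 1, 0; σ a, σ a, 0, 1])
    (fun a b => by simp only [mul4, em4, map_add]; grind)
    (fun a => h _ (by rw [dm4]; grind) (by
      simp only [H9.map4, tm4, mul4, one4, em4, map_one, map_zero, hσ]; grind))
    (fun a e => by simpa using congrFun (congrFun e 0) 2) fun t ht => ?_
  obtain ⟨s, hs⟩ : ∃ s, t * s = 1 := ⟨_, mul_inv_cancel₀ ht⟩
  have hs' : σ t * σ s = 1 := by rw [← map_mul, hs, map_one]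
  obtain ⟨g, hg⟩ := h !![t * (1 + x) + σ s * x, (t + σ s) * x, 0, 0;
    (t + σ s) * (1 + x), t * x + σ s * (1 + x), 0, 0;
    0, 0, σ t * (1 + x) + s * x, (σ t + s) * x;
    0, 0, (σ t + s) * (1 + x), σ t * x + s * (1 + x)] (by rw [dm4]; grind) (by
      simp only [H9.map4, tm4, mul4, one4, em4, map_one, map_zero, map_add, map_mul, hσ, hx]; grind)
  exact ⟨g, fun a => by simp only [hg, mul4, em4, map_mul, map_pow]; grind⟩

/-- the radical of the stabiliser of an isotropic plane -/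
def sieg (p q r : F) : Sp4E.Sp F := ⟨!![1, 0, q, r; 0, 1, p, q; 0, 0, 1, 0; 0, 0, 0, 1], by
  have two := CharTwo.two_eq_zero (R := F)
  simp only [Sp4E.J_def, tm4, mul4, em4]; and_intros <;> grind⟩

omit [Finite F] in
theorem sieg_mul (p q r p' q' r' : F) :
    sieg (p + p') (q + q') (r + r') = sieg p q r * sieg p' q' r' := by
  ext1; simp only [sieg, Sp4E.Sp.val_mul, mul4, em4]; and_intros <;> grind

omit [Finite F] in
theorem levi {M N : Matrix (Fin 2) (Fin 2) F} (e : M * N = 1) : ∃ g : Sp4E.Sp F, ∀ p q r,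
    g * sieg p q r = sieg (M 0 0 * M 0 0 * p + M 1 0 * M 1 0 * r)
      (M 0 0 * M 0 1 * p + (M 0 0 * M 1 1 + M 1 0 * M 0 1) * q + M 1 0 * M 1 1 * r)
      (M 0 1 * M 0 1 * p + M 1 1 * M 1 1 * r) * g := by
  have two := CharTwo.two_eq_zero (R := F)
  have e' := mul_eq_one_comm.1 e
  simp only [← Matrix.ext_iff, Fin.forall_fin_two, mul_apply, Fin.sum_univ_two, one_apply_eq,
    one_apply_ne (show (0 : Fin 2) ≠ 1 by decide), one_apply_ne (show (1 : Fin 2) ≠ 0 by decide)]
    at e e'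
  refine ⟨⟨!![M 1 1, M 0 1, 0, 0; M 1 0, M 0 0, 0, 0; 0, 0, N 0 0, N 0 1; 0, 0, N 1 0, N 1 1], by
    simp only [Sp4E.J_def, tm4, mul4, em4]; and_intros <;> grind⟩, fun p q r => ?_⟩
  ext1; simp only [sieg, Sp4E.Sp.val_mul, mul4, em4]; and_intros <;> grind

theorem big_sp (h4 : 4 ≤ Nat.card F) : Big (Sp4E.Sp F) := by
  have two := CharTwo.two_eq_zero (R := F)
  let E := FiniteField.Extension F 2 2
  haveI : CharP E 2 := charP_of_injective_algebraMap (algebraMap F E).injective 2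
  let b := Module.finBasisOfFinrankEq F E (FiniteField.finrank_extension F 2 2)
  have hb : ∀ (t : E) i, t * b i =
      Algebra.leftMulMatrix b t 0 i • b 0 + Algebra.leftMulMatrix b t 1 i • b 1 := fun t i => by
    simp only [Algebra.leftMulMatrix_eq_repr_mul]
    rw [← Fin.sum_univ_two (fun j => b.repr (t * b i) j • b j), b.sum_repr]
  refine big_hom (F := E) ?_ (MonoidHom.id _) Function.injective_id
    (fun a => sieg (Algebra.trace F E (a * (b 0 * b 0))) (Algebra.trace F E (a * (b 0 * b 1)))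
      (Algebra.trace F E (a * (b 1 * b 1))))
    (fun a b => by simp only [map_add, add_mul, sieg_mul]) (fun a => ⟨_, rfl⟩)
    (fun a e => ?_) fun t ht => ?_
  · rw [FiniteField.natCard_extension]; nlinarith
  · have e := congrArg Sp4E.Sp.val e
    simp only [sieg, Sp4E.Sp.val_one, one4, em4] at e
    refine (traceForm_nondegenerate F E).1 a fun y => ?_
    obtain ⟨z, rfl⟩ : ∃ z, y = b 0 * z := ⟨y / b 0, (mul_div_cancel₀ _ (b.ne_zero 0)).symm⟩
    rw [Algebra.traceForm_apply, ← b.sum_repr z, Fin.sum_univ_two]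
    simp [mul_add, e]
  · have e := congrArg (Algebra.leftMulMatrix b) (mul_inv_cancel₀ ht)
    rw [map_mul, map_one] at e
    obtain ⟨g, hg⟩ := levi e
    have k : ∀ a i j, t ^ 2 * a * (b i * b j) = a * ((t * b i) * (t * b j)) :=
      fun a i j => by ring
    refine ⟨g, fun a => (hg _ _ _).trans ?_⟩
    simp only [k, hb t, mul_add, add_mul, smul_mul_assoc, mul_smul_comm, map_add, map_smul,
      smul_eq_mul, mul_comm (b 1) (b 0), MonoidHom.id_apply]
    generalize Algebra.leftMulMatrix b t = M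
    clear k hg hb
    congr 2 <;> grind

theorem big_sz [H9.Suz.Tw2 F] (h8 : 8 ≤ Nat.card F) (m : Γ →* Mt F) (hm : Function.Injective m)
    (h : ∀ A, H9.Suz.IsSz A → ∃ g, m g = A) : Big Γ := by
  refine big_hom h8 m hm (H9.Suz.Xm 0) (fun a b => by simp [H9.Suz.Xm_mul])
    (fun a => h _ (H9.Suz.isSz_Xm _ _))
    (fun a e => (H9.Suz.Xm_inj (e.trans H9.Suz.Xm_zero.symm)).2) fun t ht => ?_
  obtain ⟨k, hk⟩ := Finite.surjective_of_injective (f := fun k : Fˣ =>
    k ^ 2 * Units.map (H9.Suz.Tw2.s (K := F)).toMonoidHom k) ((injective_iff_map_eq_one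
      ((powMonoidHom 2) * Units.map (H9.Suz.Tw2.s (K := F)).toMonoidHom)).2 fun k e =>
    Units.ext (H9.Suz.eq_one_of_sq_mul_s k.ne_zero (congrArg Units.val e))) (Units.mk0 t ht ^ 2)
  obtain ⟨g, hg⟩ := h _ (H9.Suz.isSz_Hm k.ne_zero)
  refine ⟨g, fun a => ?_⟩
  rw [hg, H9.Suz.Hm_Xm k.ne_zero, mul_zero, show (k : F) ^ 2 * H9.Suz.Tw2.s (k : F) = t ^ 2 from
    congrArg Units.val hk]

end Cfsg.Agent.L4.L2
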