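import Cfsg.Agent.L4.Lb
import Cfsg.Agent.Sp4E.TvC

/-! Simple subgroups of `Sp₄` in characteristic two. -/

set_option autoImplicit false

namespace Cfsg.Agent.L4.L2

open Matrix hiding J
open Subgroup Module Cfsg.Agent.L4.H Cfsg.Agent.Sp4E
open scoped MatrixGroups

variable {Γ : Type*} [Group Γ] {F : Type*} [Field F]

/-- a homomorphism into the symplectic group -/
def mkSp (m : Γ →* Mt F) (h : ∀ g, (m g)ᵀ * J F * m g = J F) : Γ →* Sp F where
  toFun g := ⟨m g, h g⟩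
  map_one' := Sp.ext m.map_one
  map_mul' a b := Sp.ext (m.map_mul a b)

/-- no realisation over a proper subfield -/
def NoSub (m : Γ →* Mt F) : Prop := ∀ (F₀ : Subfield F) (B B' : Mt F), B * B' = 1 →
  (∀ g i j, (B * m g * B') i j ∈ F₀) → F₀ = ⊤

theorem NoSub.cj {m m' : Γ →* Mt F} (hn : NoSub m) {B B' : Mt F} (h : B * B' = 1)
    (e : ∀ g, m' g = B * m g * B') : NoSub m' := fun F₀ C C' hC H =>
  hn F₀ (C * B) (B' * C') (by rw [mul_assoc, ← mul_assoc B, h, one_mul, hC]) fun g => by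
    simpa only [e, mul_assoc] using H g

/-- change of basis -/
def cjH (m : Γ →* Mt F) {B B' : Mt F} (h : B * B' = 1) : Γ →* Mt F where
  toFun g := B * m g * B'
  map_one' := by rw [map_one, mul_one, h]
  map_mul' a b := by
    simp only [map_mul, mul_assoc]
    rw [← mul_assoc B', mul_eq_one_comm.1 h, one_mul]

theorem cjH_inj {m : Γ →* Mt F} (hm : Function.Injective m) {B B' : Mt F} (h : B * B' = 1) :
    Function.Injective (cjH m h) := fun _ _ e =>
  hm (cancel_left (det_of_mul h).1 (cancel_right (det_of_mul h).2 e))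

variable [Finite Γ] [IsSimpleGroup Γ] [Finite F] [CharP F 2]

theorem q_case (hna : ¬ ∀ x y : Γ, x * y = y * x) (s : Γ →* Sp F) (hs : Function.Injective s)
    {Q : V F → F} (hQ : IsQ Q) (H : ∀ g v, Q (s g • v) = Q v) : Big Γ ∨ Small Γ := by
  let e := MulEquiv.ofBijective (tau : Sp F →* Sp F) ⟨tau_injective, tau_surjective⟩
  obtain ⟨s', hs', e'⟩ : ∃ s' : Γ →* Sp F, Function.Injective s' ∧ ∀ g, tau (s' g) = s g :=
    ⟨e.symm.toMonoidHom.comp s, e.symm.injective.comp hs, fun g => e.apply_symm_apply _⟩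
  obtain ⟨y, hy⟩ := hQ.exists_vec
  have key : ∀ g, ∃ c : F, (s' g).val * (Bm y * J F) * (s' g)⁻¹.val =
      Bm y * J F + c • (1 : M4 F) := fun g => by
    obtain ⟨c, hc⟩ := Bm_conj (s' g) y fun x => by rw [← hy, ← hy, e']; exact H g x
    refine ⟨c, ?_⟩
    rw [Sp.val_inv, ← J_mul_J, ← Matrix.smul_mul, ← Matrix.add_mul, ← hc]
    simp only [Matrix.mul_assoc]
    rw [← Matrix.mul_assoc (J F) (J F), J_mul_J, Matrix.one_mul]
  choose χ hχ using key
  have inj : ∀ c c' : F, Bm y * J F + c • (1 : M4 F) = Bm y * J F + c' • (1 : M4 F) → c = c' :=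
    fun c c' e => by simpa using congrFun (congrFun e 0) 0
  let φ : Γ →* Multiplicative F := MonoidHom.mk' (fun g => Multiplicative.ofAdd (χ g)) fun a b => by
    rw [← ofAdd_add]
    congr 1
    apply inj
    rw [← hχ, add_smul, ← add_assoc, ← hχ, map_mul, _root_.mul_inv_rev, Sp.val_mul, Sp.val_mul]
    calc _ = (s' a).val * ((s' b).val * (Bm y * J F) * (s' b)⁻¹.val) * (s' a)⁻¹.val := by
          simp only [Matrix.mul_assoc]
      _ = _ := by
        rw [hχ b, Matrix.mul_add, Matrix.add_mul, Matrix.mul_smul, Matrix.mul_one,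
          Matrix.smul_mul, Sp.mul_inv_val]
  refine comm_case hna (Sp.toM.comp s') (Sp.val_injective.comp hs') (M := Bm y * J F)
    (fun g => ?_) fun c hc => ?_
  · have h2 := hχ g
    rw [show χ g = 0 from H6.MG.hom_one hna φ g, zero_smul, add_zero] at h2
    change _ * (s' g).val = (s' g).val * _
    conv_lhs => rw [← h2]
    rw [Matrix.mul_assoc, Sp.inv_mul_val, Matrix.mul_one]
  · rw [Bm, J_def, mul4] at hc
    have h0 := congrFun (congrFun hc 0) 0
    have h1 := congrFun (congrFun hc 1) 1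
    simp at h0 h1
    exact one_ne_zero (h0.trans h1.symm)

/-- elliptic forms -/
def Ell (Q : V (ZMod 2) → ZMod 2) : Prop :=
  ∀ x y, Q x = 0 → Q y = 0 → f x y = 0 → x = 0 ∨ y = 0 ∨ x = y

set_option synthInstance.maxSize 1024 in
theorem ell_six : ∀ y : V (ZMod 2), Ell (fun x => Q0 x + f x y ^ 2) → ∃ i : Fin 6,
    ![![1, 0, 0, 1], ![1, 1, 0, 1], ![1, 0, 1, 1], ![0, 1, 1, 0], ![1, 1, 1, 0], ![0, 1, 1, 1]] i =
      y := by
  unfold Ell; decide +kernel

theorem ell_one : Ell (fun x => Q0 x + f x ![1, 0, 0, 1] ^ 2) := by unfold Ell; decide +kernel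

theorem sp_two (hna : ¬ ∀ x y : Γ, x * y = y * x) (s : Γ →* Sp (ZMod 2))
    (hs : Function.Injective s) : Big Γ ∨ Small Γ := by
  let Ω := {Q : V (ZMod 2) → ZMod 2 // IsQ Q ∧ Ell Q}
  let a : Γ → Ω → Ω := fun g Q => ⟨fun x => Q.1 (s g⁻¹ • x),
    ⟨fun c v => by rw [Sp.smul_smul', Q.2.1.smul], fun x y => by
      rw [smul_add, Q.2.1.add, Sp.f_smul]⟩, fun x y h1 h2 h3 => by
    simpa [smul_eq_zero_iff_eq] using Q.2.2 _ _ h1 h2 (by rwa [Sp.f_smul])⟩
  letI : MulAction Γ Ω :=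
    { smul := a
      one_smul := fun Q => Subtype.ext (funext fun x => show Q.1 (s 1⁻¹ • x) = _ by simp)
      mul_smul := fun g h Q => Subtype.ext (funext fun x =>
        show Q.1 (s (g * h)⁻¹ • x) = Q.1 (s h⁻¹ • s g⁻¹ • x) by simp [mul_smul]) }
  by_cases h : ∃ g, MulAction.toPermHom Γ Ω g ≠ 1
  · have key : ∀ Q : Ω, ∃ i : Fin 6, Q.1 = fun x => Q0 x + f x (![![1, 0, 0, 1], ![1, 1, 0, 1],
        ![1, 0, 1, 1], ![0, 1, 1, 0], ![1, 1, 1, 0], ![0, 1, 1, 1]] i) ^ 2 := fun Q => by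
      obtain ⟨y, hy⟩ := Q.2.1.exists_vec
      obtain ⟨i, rfl⟩ := ell_six y (funext hy ▸ Q.2.2)
      exact ⟨i, funext hy⟩
    choose i hi using key
    have hi' : Function.Injective i := fun Q Q' e => Subtype.ext (by rw [hi, hi, e])
    exact Or.inr (sub_s6 hna ((Equiv.Perm.viaEmbeddingHom ⟨i, hi'⟩).comp _)
      ((Equiv.Perm.viaEmbeddingHom_injective _).comp (inj_of _ h)))
  push Not at h
  have hQ : IsQ fun x : V (ZMod 2) => Q0 x + f x ![1, 0, 0, 1] ^ 2 :=
    ⟨fun c v => by rw [isQ_Q0.smul, f_smul_left]; ring, fun x z => by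
      rw [isQ_Q0.add, f_add_left, CharTwo.add_sq]; ring⟩
  refine q_case hna s hs hQ fun g v => ?_
  have := congrFun (congrArg Subtype.val (DFunLike.congr_fun (h g⁻¹) ⟨_, hQ, ell_one⟩)) v
  rw [← inv_inv g]
  exact this

theorem sp_case (hna : ¬ ∀ x y : Γ, x * y = y * x) (s : Γ →* Sp F) (hs : Function.Injective s)
    (hn : NoSub (Sp.toM.comp s)) : Big Γ ∨ Small Γ := by
  letI := Fintype.ofFinite F
  by_cases h2 : Nat.card F = 2
  · let e := ZMod.ringEquivOfPrime F Nat.prime_two (Nat.card_eq_fintype_card.symm.trans h2)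
    refine sp_two hna (mkSp (e.symm.toRingHom.mapMatrix.toMonoidHom.comp (Sp.toM.comp s))
      fun g => ?_) fun a b h => hs (Sp.ext (map_inj e.symm.toRingHom (congrArg Sp.val h)))
    have h := congrArg (fun A : M4 F => A.map e.symm.toRingHom) (s g).form
    simp only [Matrix.map_mul, show (J F).map e.symm.toRingHom = J _ by
      rw [J_def, J_def, H9.map4]; simp] at h
    exact h
  have h4 : 4 ≤ Nat.card F := by have := card_cases F; omega
  have e := MonoidHom.ofInjective hs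
  by_cases hp : s.range = ⊤
  · exact Or.inl ((big_sp h4).of_inj (e.symm.toMonoidHom.comp
      ((MulEquiv.subgroupCongr hp).trans topEquiv).symm.toMonoidHom)
      (e.symm.injective.comp (MulEquiv.injective _)))
  have hm : Function.Injective (Sp.toM.comp s) := Sp.val_injective.comp hs
  by_contra hc
  have h1 : Hyp s.range := by
    refine ⟨e.symm.isSimpleGroup, ?_, fun W hW => ?_, fun F₀ B hB => ?_, fun Q hQ H => ?_, hp⟩
    · by_contra h
      push Not at h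
      exact hna fun x y => hs (by simpa using h _ ⟨x, rfl⟩ _ ⟨y, rfl⟩)
    · by_contra h
      push Not at h
      exact hc (red hna _ hm (fun g => hW _ ⟨g, rfl⟩) h.1 h.2)
    · exact hn F₀ B.val B⁻¹.val (Sp.mul_inv_val B) fun g => hB _ ⟨g, rfl⟩
    · exact hc (q_case hna s hs hQ fun g => H _ ⟨g, rfl⟩)
  have h2 := h1.tau fun M hM => by
    by_contra h
    push Not at h
    exact hc (comm_case hna _ hm (fun g => hM _ ⟨g, rfl⟩) h)
  rw [Nat.card_eq_fintype_card] at h4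
  obtain ⟨B, n, h3, h5, h6⟩ := Hyp2.suz ⟨h1, h2, fun u hu =>
    ⟨no_tv h4 _ h1 u hu, no_tv h4 _ h2 u hu⟩⟩ h4
  letI := H9.Suz.tw2 h5
  refine hc (Or.inl (big_sz ?_ (Sp.toM.comp ((MulAut.conj B).toMonoidHom.comp s))
    (Sp.val_injective.comp ((MulAut.conj B).injective.comp hs)) fun A hA => ?_))
  · rw [Nat.card_eq_fintype_card, h5]
    exact Nat.pow_le_pow_right (n := 2) two_pos (show 3 ≤ _ by omega)
  · obtain ⟨_, ⟨g, rfl⟩, e⟩ := (h6 ⟨A, hA.form⟩).2 hA.star
    exact ⟨g, congrArg Sp.val e⟩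

theorem symp_case (hna : ¬ ∀ x y : Γ, x * y = y * x) (m : Γ →* Mt F) (hm : Function.Injective m)
    (hn : NoSub m) {G : Mt F} (h0 : G ≠ 0) (ha : ∀ v, v ⬝ᵥ G *ᵥ v = 0)
    (hG : ∀ g, (m g)ᵀ * G * m g = G) : Big Γ ∨ Small Γ := by
  have two := CharTwo.two_eq_zero (R := F)
  have sym : ∀ u v, u ⬝ᵥ G *ᵥ v = v ⬝ᵥ G *ᵥ u := fun u v => by
    have := ha (u + v)
    simp only [mulVec_add, add_dotProduct, dotProduct_add, ha] at this
    grind
  by_cases hr : LinearMap.ker G.mulVecLin ≠ ⊥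
  · refine red hna m hm (fun g v hv => ?_) hr fun e => h0 (Matrix.ext_of_mulVec_single fun i => ?_)
    · refine eq_zero_of_mulVec_eq_zero (M := (m g)ᵀ) (by
        rw [det_transpose]; exact (det_of_mul (B' := m g⁻¹) (by rw [← map_mul]; simp)).1) ?_
      rw [mulVecLin_apply, mulVec_mulVec, mulVec_mulVec, hG]; exact hv
    · rw [zero_mulVec]; exact (e ▸ Submodule.mem_top : _ ∈ LinearMap.ker G.mulVecLin)
  have nd : ∀ u, u ≠ 0 → ∃ v, u ⬝ᵥ G *ᵥ v = 1 := fun u hu => by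
    obtain ⟨i, hi⟩ := Function.ne_iff.1 fun e : G *ᵥ u = 0 =>
      hu ((Submodule.eq_bot_iff _).1 (not_not.1 hr) u e)
    exact ⟨Pi.single i ((G *ᵥ u) i)⁻¹, by rw [sym]; simpa using inv_mul_cancel₀ hi⟩
  obtain ⟨v, hv⟩ := nd ![1, 0, 0, 0] (by simp)
  generalize ![(1 : F), 0, 0, 0] = u at hv
  obtain ⟨x, y, h1, h2, h3, h4, h5⟩ := exists_ker (G *ᵥ u) (G *ᵥ v)
  obtain ⟨z, hz⟩ := nd x fun e => by simpa [e] using h5 1 0
  rw [dotProduct_comm] at h1 h2 h3 h4
  obtain ⟨w, k1, k2, k3⟩ : ∃ w, w ⬝ᵥ G *ᵥ u = 0 ∧ w ⬝ᵥ G *ᵥ v = 0 ∧ x ⬝ᵥ G *ᵥ w = 1 :=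
    ⟨z + (z ⬝ᵥ G *ᵥ v) • u + (z ⬝ᵥ G *ᵥ u) • v, by
      simp [ha, sym v u, hv, mulVec_add, mulVec_smul, h1, h2, hz, CharTwo.add_self_eq_zero]⟩
  have hB : (cols u x w v)ᵀ * G * cols u x w v = J F := by
    have : ∀ i j, ((cols u x w v)ᵀ * G * cols u x w v) i j = ![u, x, w, v] i ⬝ᵥ G *ᵥ ![u, x, w, v] j :=
      fun i j => by
        rw [mul_assoc]
        fin_cases i <;> fin_cases j <;> rfl
    simp [eq16, this, J_def, ha, hv, sym v u, h1, h2, k1, k2, k3, sym u x, sym u w, sym v x,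
      sym v w, sym w x]
  generalize cols u x w v = B at hB
  have hB' : J F * Bᵀ * G * B = 1 := by rw [mul_assoc, mul_assoc, ← mul_assoc _ G, hB, J_mul_J]
  refine sp_case hna (mkSp (cjH m hB') fun g => ?_) (fun a b e => cjH_inj hm hB'
    (congrArg Sp.val e)) (hn.cj hB' fun g => rfl)
  have e : B * cjH m hB' g = m g * B := by
    rw [cjH, MonoidHom.coe_mk, OneHom.coe_mk, ← mul_assoc, ← mul_assoc, mul_eq_one_comm.1 hB',
      one_mul]
  generalize cjH m hB' g = C at e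
  calc _ = (B * C)ᵀ * G * (B * C) := by rw [← hB]; simp only [transpose_mul, mul_assoc]
    _ = Bᵀ * ((m g)ᵀ * G * m g) * B := by rw [e]; simp only [transpose_mul, mul_assoc]
    _ = _ := by rw [hG, hB]

end Cfsg.Agent.L4.L2
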