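import Cfsg.Agent.L4.La
import Cfsg.Agent.L4.R0

/-! The configurations which exclude a complex representation of degree four. -/

set_option autoImplicit false

namespace Cfsg.Agent.L4.L2

open Matrix Subgroup Cfsg.Agent.H6.M3 Cfsg.Agent.L4.R
open scoped MatrixGroups

variable {Γ Δ : Type*} [Group Γ] [Group Δ]

theorem Big.k1 (h : Big Γ) : K1 Γ := by
  obtain ⟨K, _, _, _, h8, x, h1, h2, h3⟩ := h
  let φ : Multiplicative K →* Γ := MonoidHom.mk' (fun a => x a.toAdd) fun a b => h2 _ _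
  have h0 : x 0 = 1 := φ.map_one
  obtain ⟨l, hl⟩ := IsCyclic.exists_monoid_generator (α := Kˣ)
  obtain ⟨c, hc⟩ := h3 l l.ne_zero
  refine ⟨φ.range, c, ?_, ?_, ?_, ?_⟩
  · rintro _ ⟨a, rfl⟩
    exact (h2 _ _).symm.trans (by rw [CharTwo.add_self_eq_zero, h0])
  · rwa [← Nat.card_congr (MonoidHom.ofInjective (f := φ) h1).toEquiv, Nat.card_eq_fintype_card,
      Fintype.card_multiplicative]
  · rintro _ ⟨a, rfl⟩
    exact ⟨_, (hc _).symm⟩
  · rintro _ ⟨a, rfl⟩ _ ⟨b, rfl⟩ ha hb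
    have a0 : a.toAdd ≠ 0 := fun e => ha ((congrArg x e).trans h0)
    have b0 : b.toAdd ≠ 0 := fun e => hb ((congrArg x e).trans h0)
    have key : ∀ n : ℕ, c ^ n * x a.toAdd * (c ^ n)⁻¹ = x (l ^ n * a.toAdd) := fun n => by
      induction n with
      | zero => simp
      | succ n ih => rw [pow_succ' (l : K), mul_assoc (l : K), ← hc, ← ih]; group
    obtain ⟨n, hn⟩ := hl (Units.mk0 _ (div_ne_zero b0 a0))
    refine ⟨n, (key n).trans (congrArg x ?_)⟩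
    rw [show (l : K) ^ n = b.toAdd / a.toAdd from congrArg Units.val hn, div_mul_cancel₀ _ a0]

theorem k2_of_inj (h : K2 Δ) (j : Δ →* Γ) (hj : Function.Injective j) : K2 Γ := by
  obtain ⟨A, h1, h2, h3⟩ := h
  refine ⟨A.map j, by rwa [card_map_of_injective hj], ?_, ?_⟩
  · rintro _ ⟨a, ha, rfl⟩
    rw [← map_pow, h2 a ha, map_one]
  · rintro _ ⟨a, ha, rfl⟩ _ ⟨b, hb, rfl⟩ a1 b1
    obtain ⟨n, h4, rfl⟩ := h3 a ha b hb (by rintro rfl; simp at a1) (by rintro rfl; simp at b1)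
    refine ⟨j n, ?_, by simp⟩
    rintro _ ⟨x, hx, rfl⟩
    exact ⟨_, h4 x hx, by simp⟩

theorem k2_dec : ∀ f g : ZMod 3 × ZMod 3 → ZMod 3 × ZMod 3,
    f = (fun v => v.1.val • (0, 1) + v.2.val • (2, 0)) →
    g = (fun v => v.1.val • (2, 1) + v.2.val • (1, 1)) → ∀ u v, u ≠ 0 → v ≠ 0 →
    u = v ∨ f u = v ∨ f (f u) = v ∨ f (f (f u)) = v ∨ g u = v ∨ f (g u) = v ∨ f (f (g u)) = v ∨
      f (f (f (g u))) = v := by
  rintro _ _ rfl rfl; decide +kernel

theorem k2_of {a b n n' : Γ} (h0 : a ≠ 1) (ha : a ^ 3 = 1) (hab : a * b = b * a)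
    (h1 : n * a * n⁻¹ = b) (h2 : n * b * n⁻¹ = a * a) (h3 : n' * a * n'⁻¹ = a * a * b)
    (h4 : n' * b * n'⁻¹ = a * b) : K2 Γ := by
  have hb : b ^ 3 = 1 := by rw [← h1, conj_pow, ha]; simp
  let φ : Multiplicative (ZMod 3 × ZMod 3) →* Γ := MonoidHom.mk'
    (fun v => a ^ v.toAdd.1.val * b ^ v.toAdd.2.val) fun u v => by
      simp only [toAdd_mul, Prod.fst_add, Prod.snd_add, ZMod.val_add, ← pow_eq_pow_mod _ ha,
        ← pow_eq_pow_mod _ hb, pow_add]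
      exact (Commute.pow_pow hab _ _).mul_mul_mul_comm _ _
  let R : Γ → (ZMod 3 × ZMod 3 → ZMod 3 × ZMod 3) → Prop := fun n f =>
    ∀ v, n * φ (.ofAdd v) * n⁻¹ = φ (.ofAdd (f v))
  have k1 : ∀ n u w, n * a * n⁻¹ = φ (.ofAdd u) → n * b * n⁻¹ = φ (.ofAdd w) →
      R n fun v => v.1.val • u + v.2.val • w := fun n u w e e' v => by
    rw [ofAdd_add, ofAdd_nsmul, ofAdd_nsmul, map_mul, map_pow, map_pow, ← e, ← e', conj_pow,
      conj_pow]
    change n * (a ^ v.1.val * b ^ v.2.val) * _ = _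
    group
  have k2 : ∀ n n' f f', R n f → R n' f' → R (n * n') fun v => f (f' v) := fun n n' f f' e e' v => by
    rw [← e, ← e']; group
  have r1 := k1 n (0, 1) (2, 0) (h1.trans (by change _ = a ^ 0 * b ^ 1; group))
    (h2.trans (by change _ = a ^ 2 * b ^ 0; rw [pow_zero, mul_one, sq]))
  have r2 := k1 n' (2, 1) (1, 1) (h3.trans (by change _ = a ^ 2 * b ^ 1; rw [pow_one, sq]))
    (h4.trans (by change _ = a ^ 1 * b ^ 1; group))
  have key : ∀ u v, u ≠ 0 → v ≠ 0 → ∃ n f, R n f ∧ f u = v := fun u v hu hv => by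
    rcases k2_dec _ _ rfl rfl u v hu hv with e | e | e | e | e | e | e | e
    exacts [⟨1, id, fun v => by simp, e⟩, ⟨_, _, r1, e⟩, ⟨_, _, k2 _ _ _ _ r1 r1, e⟩,
      ⟨_, _, k2 _ _ _ _ r1 (k2 _ _ _ _ r1 r1), e⟩, ⟨_, _, r2, e⟩, ⟨_, _, k2 _ _ _ _ r1 r2, e⟩,
      ⟨_, _, k2 _ _ _ _ r1 (k2 _ _ _ _ r1 r2), e⟩,
      ⟨_, _, k2 _ _ _ _ r1 (k2 _ _ _ _ r1 (k2 _ _ _ _ r1 r2)), e⟩]
  have inj : Function.Injective φ := (injective_iff_map_eq_one _).2 fun u hu => by_contra fun h => by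
    obtain ⟨n, f, e, e'⟩ := key u.toAdd (1, 0) h (by decide)
    have := e u.toAdd
    rw [e', ofAdd_toAdd, hu, mul_one, mul_inv_cancel] at this
    exact h0 (((mul_one _).symm.trans (by change _ = a ^ 1 * b ^ 0; group)).trans this.symm)
  refine ⟨φ.range, ?_, ?_, ?_⟩
  · rw [← Nat.card_congr (MonoidHom.ofInjective inj).toEquiv]; simp
  · rintro _ ⟨u, rfl⟩
    rw [← map_pow, show u ^ 3 = 1 by revert u; decide, map_one]
  · rintro _ ⟨u, rfl⟩ _ ⟨v, rfl⟩ hu hv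
    obtain ⟨n, f, e, e'⟩ := key u.toAdd v.toAdd (fun h => hu (by rw [show u = 1 from h, map_one]))
      fun h => hv (by rw [show v = 1 from h, map_one])
    refine ⟨n, ?_, (e u.toAdd).trans (by rw [e']; rfl)⟩
    rintro _ ⟨x, rfl⟩
    exact ⟨_, (e x.toAdd).symm⟩

theorem ex_ord {K : Type*} [Field K] [Fintype K] (p : ℕ) [Fact p.Prime]
    (h : p ∣ Fintype.card K - 1) : ∃ t : K, t ≠ 1 ∧ t ^ p = 1 := by
  obtain ⟨t, ht⟩ := exists_prime_orderOf_dvd_card' (G := Kˣ) p (by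
    rwa [Nat.card_units, Nat.card_eq_fintype_card])
  refine ⟨t, fun e => ?_, by rw [← Units.val_pow_eq_pow_val, ← ht, pow_orderOf_eq_one]; rfl⟩
  rw [Units.val_eq_one.1 e, orderOf_one] at ht
  exact (Fact.out : p.Prime).ne_one ht.symm

theorem k2_l34 {K : Type*} [Field K] [Fintype K] (h : Fintype.card K = 4) : K2 PSL(3, K) := by
  haveI : CharP K 2 := charP_of_card_eq_prime_pow (f := 2) h
  have two := CharTwo.two_eq_zero (R := K)
  obtain ⟨w, w1, w3⟩ := ex_ord (K := K) 3 (by rw [h])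
  have hw : w ^ 2 + w + 1 = 0 := by grind
  obtain ⟨ρ, hρ⟩ : ∃ ρ : PR PSL(3, K) K, ∀ A : Mt K, A.det = 1 → ρ.In A :=
    ⟨PR.ofHom (slToMat 3 K) (QuotientGroup.mk' _) (QuotientGroup.mk'_surjective _) fun x => by
      rw [QuotientGroup.mk'_apply, QuotientGroup.eq_one_iff, mem_center_iff]
      refine ⟨fun h => ?_, fun ⟨c, hc⟩ y => Subtype.ext (by simp [show x.1 = _ from hc])⟩
      obtain ⟨r, -, e⟩ := Matrix.SpecialLinearGroup.mem_center_iff.1 (mem_center_iff.2 h)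
      exact ⟨r, e.symm.trans (smul_one_eq_diagonal r).symm⟩,
    fun A d => ⟨_, PR.ofHom_L (G := SL(3, K)) ⟨A, d⟩⟩⟩
  obtain ⟨a, ha⟩ := hρ !![1, 0, 0; 0, w, 0; 0, 0, w ^ 2] (by rw [dm3]; grind)
  obtain ⟨b, hb⟩ := hρ !![0, 1, 0; 0, 0, 1; 1, 0, 0] (by rw [dm3]; grind)
  obtain ⟨n, hn⟩ := hρ !![1, 1, 1; 1, w, w ^ 2; 1, w ^ 2, w] (by rw [dm3]; grind)
  obtain ⟨n', hn'⟩ := hρ !![1, 1, w ^ 2; 1, w, w; w, 1, w] (by rw [dm3]; grind)
  refine k2_of (n := n) (n' := n') (fun e => ?_) (ρ.inj ?_) ((ρ.comm_iff ha hb).2 ⟨w, ?_⟩)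
    ((ρ.conj_iff hn ha hb).2 ⟨1, ?_⟩) ((ρ.conj_iff hn hb (ρ.mul ha ha)).2 ⟨1, ?_⟩)
    ((ρ.conj_iff hn' ha (ρ.mul (ρ.mul ha ha) hb)).2 ⟨1, ?_⟩)
    ((ρ.conj_iff hn' hb (ρ.mul ha hb)).2 ⟨w ^ 2, ?_⟩)
  · obtain ⟨c, hc⟩ := (ρ.eq_one_iff ha).1 e
    simp only [one_fin_three, sm3, em3] at hc
    grind
  · convert ρ.pow ha 3
    simp only [pow_succ, pow_zero, one_mul, mul_fin_three, one_fin_three, em3]
    grind
  all_goals
    simp only [mul_fin_three, sm3, em3]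
    grind

theorem k3_map (π : Δ →* Γ) {z z' a b c d n n' : Δ} (h1 : z * z = 1) (h2 : π z ≠ 1)
    (h3 : z * z' = z' * z) (h4 : n * z = z' * n) (h5 : n' * z = z * z' * n')
    (h6 : ∀ x ∈ ({a, b, c, d} : Set Δ), x * z = z * x ∧ x * z' = z' * x)
    (h7 : z = cm (cm a b) (cm c d)) : K3 Γ := by
  refine ⟨π z, π z', π a, π b, π c, π d, by rw [← map_mul, h1, map_one], h2,
    by rw [← map_mul, h3, map_mul], isConj_iff.2 ⟨π n, ?_⟩, isConj_iff.2 ⟨π n', ?_⟩, ?_, ?_⟩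
  · rw [← map_mul, h4]; simp
  · rw [← map_mul, h5]; simp
  · simp only [Set.mem_insert_iff, Set.mem_singleton_iff, forall_eq_or_imp, forall_eq] at h6 ⊢
    simp only [← map_mul, h6, and_self]
  · simp [h7, cm]

theorem k3_of_inj (h : K3 Δ) (j : Δ →* Γ) (hj : Function.Injective j) : K3 Γ := by
  obtain ⟨z, z', a, b, c, d, h1, h2, h3, h4, h5, h6, h7⟩ := h
  obtain ⟨n, h4⟩ := isConj_iff.1 h4
  obtain ⟨n', h5⟩ := isConj_iff.1 h5
  exact k3_map j h1 (fun e => h2 (hj (e.trans j.map_one.symm))) h3 (mul_inv_eq_iff_eq_mul.1 h4)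
    (mul_inv_eq_iff_eq_mul.1 h5) h6 h7

theorem cm_eq {a b e : Γ} (h : a * b = e * (b * a)) : cm a b = e := by rw [cm, h]; group

set_option maxHeartbeats 1000000 in
theorem k3_u34 {K : Type*} [Field K] [Fintype K] (h : Fintype.card K = 16) : K3 (PSU 3 K 4) := by
  haveI : CharP K 2 := charP_of_card_eq_prime_pow (f := 4) h
  have two := CharTwo.two_eq_zero (R := K)
  obtain ⟨t, t1, t5⟩ := ex_ord (K := K) 5 (by rw [h]; norm_num)
  have ht : t ^ 4 + t ^ 3 + t ^ 2 + t + 1 = 0 := by grind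
  have hσ : iterateFrobenius K 2 2 t = t ^ 4 := rfl
  obtain ⟨m, hm, H⟩ : ∃ m : SU 3 K 4 →* Mt K, Function.Injective m ∧ ∀ A : Mt K, A.det = 1 →
      (A.map (iterateFrobenius K 2 2))ᵀ * !![0, 0, 1; 0, 1, 0; 1, 0, 0] * A =
        !![0, 0, 1; 0, 1, 0; 1, 0, 0] → ∃ g, m g = A := by
    obtain ⟨B, B', h1, h2⟩ : ∃ B B' : Mt K, B * B' = 1 ∧
        (B.map (iterateFrobenius K 2 2))ᵀ * B = !![0, 0, 1; 0, 1, 0; 1, 0, 0] :=
      ⟨!![1, 0, t ^ 3 + t ^ 4; 1, 0, 1 + t ^ 3 + t ^ 4; 0, 1, 0],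
        !![1 + t ^ 3 + t ^ 4, t ^ 3 + t ^ 4, 0; 0, 0, 1; 1, 1, 0], by
        simp only [mul_fin_three, one_fin_three, em3]; grind, by
        simp only [map3, tm3, mul_fin_three, em3, map_add, map_pow, map_one, map_zero, hσ]; grind⟩
    have h3 := mul_eq_one_comm.1 h1
    refine ⟨{ toFun := fun y => B' * y.1.1 * B
              map_one' := by simp [h3]
              map_mul' := fun x y => by simp [mul_assoc, ← mul_assoc B, h1] },
      fun x y e => Subtype.ext (Subtype.ext (cancel_left (det_of_mul h1).2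
        (cancel_right (det_of_mul h1).1 e))), fun A d e => ⟨⟨⟨B * A * B', ?_⟩,
      (herm_iff 2 2 _).2 ?_⟩, show B' * (B * A * B') * B = A by
        rw [← mul_assoc, ← mul_assoc, h3, one_mul, mul_assoc, h3, mul_one]⟩⟩
    · rw [det_mul, det_mul, d, mul_one, ← det_mul, h1, det_one]
    · change ((B * A * B').map _)ᵀ * (B * A * B') = 1
      simp only [Matrix.map_mul, transpose_mul, mul_assoc] at e ⊢
      rw [← mul_assoc _ B, h2, ← mul_assoc _ A, ← mul_assoc _ (_ * A), e, ← h2, mul_assoc, h1,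
        mul_one, ← transpose_mul, ← Matrix.map_mul, h1, map_one', transpose_one]
  generalize iterateFrobenius K 2 2 = σ at *
  have U : ∀ a a' b : K, σ a = a' → σ a' = a → b + σ b = a * a' →
      ∃ g, m g = !![1, a, b; 0, 1, a'; 0, 0, 1] := fun a a' b h1 h2 h3 => H _ (by simp [dm3]) (by
    simp only [map3, tm3, mul_fin_three, em3, map_one, map_zero, h1, h2]; grind)
  have D : ∀ a b c : K, a * b * c = 1 → σ a * c = 1 → σ b * b = 1 → σ c * a = 1 →
      ∃ g, m g = !![a, 0, 0; 0, b, 0; 0, 0, c] := fun a b c h0 h1 h2 h3 => H _ (by simp [dm3, h0]) (by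
    simp only [map3, tm3, mul_fin_three, em3, map_one, map_zero]; grind)
  obtain ⟨z, hz⟩ := U 0 0 1 (by simp) (by simp) (by grind)
  obtain ⟨z', hz'⟩ := U 0 0 (t + t ^ 4) (by simp) (by simp) (by simp [hσ]; grind)
  obtain ⟨s, hs⟩ := U 1 1 (t ^ 3 + t ^ 4) (by simp) (by simp) (by simp [hσ]; grind)
  obtain ⟨s', hs'⟩ := U t (t ^ 4) (t ^ 3 + t ^ 4) hσ (by simp [hσ]; grind) (by simp [hσ]; grind)
  obtain ⟨e, he⟩ := U (1 + t ^ 3) (1 + t ^ 2) (1 + t ^ 3) (by simp [hσ]; grind)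
    (by simp [hσ]; grind) (by simp [hσ]; grind)
  obtain ⟨e', he'⟩ := U (t + t ^ 4) (t + t ^ 4) (1 + t ^ 3) (by simp [hσ]; grind)
    (by simp [hσ]; grind) (by simp [hσ]; grind)
  obtain ⟨g, hg⟩ := D t (t ^ 3) t (by grind) (by simp [hσ]; grind) (by simp [hσ]; grind)
    (by simp [hσ]; grind)
  obtain ⟨n, hn⟩ := D (t ^ 2 + t ^ 3) 1 (t + t ^ 4) (by grind) (by simp [hσ]; grind) (by simp)
    (by simp [hσ]; grind)
  obtain ⟨n', hn'⟩ := D (t + t ^ 4) 1 (t ^ 2 + t ^ 3) (by grind) (by simp [hσ]; grind) (by simp)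
    (by simp [hσ]; grind)
  clear U D H
  have k1 : cm g s = e := cm_eq (hm (by
    simp only [map_mul, hg, hs, he, mul_fin_three, em3]; grind))
  have k2 : cm g s' = e' := cm_eq (hm (by
    simp only [map_mul, hg, hs', he', mul_fin_three, em3]; grind))
  have k3 : cm e e' = z := cm_eq (hm (by
    simp only [map_mul, hz, he, he', mul_fin_three, em3]; grind))
  refine k3_map (QuotientGroup.mk' _) (z := z) (z' := z') (a := g) (b := s) (c := g) (d := s')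
    (n := n) (n' := n') (hm ?_) (fun h => ?_) (hm ?_) (hm ?_) (hm ?_) ?_ (by rw [k1, k2, k3])
  · simp only [map_mul, map_one, hz, mul_fin_three, one_fin_three, em3]; grind
  · have := congrArg m (mem_center_iff.1 ((QuotientGroup.eq_one_iff _).1 h) n)
    simp only [map_mul, hz, hn, mul_fin_three, em3] at this
    grind
  · simp only [map_mul, hz, hz', mul_fin_three, em3]; grind
  · simp only [map_mul, hz, hz', hn, mul_fin_three, em3]; grind
  · simp only [map_mul, hz, hz', hn', mul_fin_three, em3]; grind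
  · simp only [Set.mem_insert_iff, Set.mem_singleton_iff, forall_eq_or_imp, forall_eq]
    and_intros <;> refine hm ?_ <;>
      simp only [map_mul, hz, hz', hg, hs, hs', mul_fin_three, em3] <;> and_intros <;>
      first | trivial | ring

theorem toList2 (h : Big Γ ∨ Small Γ) : List2 Γ := by
  rcases h with h | h | h | h | ⟨⟨e⟩⟩ | ⟨K, _, _, h, ⟨e⟩⟩ | ⟨K, _, _, h, ⟨e⟩⟩ | h
  · exact Or.inl h.k1
  · exact Or.inr (Or.inr (Or.inr (Or.inl h)))
  · exact Or.inr (Or.inr (Or.inr (Or.inr (Or.inl h))))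
  · exact Or.inr (Or.inr (Or.inr (Or.inr (Or.inr (Or.inr (Or.inl h))))))
  · have : center SL(3, ZMod 2) = ⊥ := (eq_bot_iff_forall _).2 fun x hx => by
      obtain ⟨r, h1, e⟩ := Matrix.SpecialLinearGroup.mem_center_iff.1 hx
      obtain rfl : r = 1 := by clear e; revert r; decide
      exact Subtype.ext (e.symm.trans (map_one _))
    exact Or.inr (Or.inr (Or.inr (Or.inr (Or.inr (Or.inl ⟨e.trans
      ((QuotientGroup.quotientMulEquivOfEq this).trans QuotientGroup.quotientBot)⟩)))))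
  · exact Or.inr (Or.inl (k2_of_inj (k2_l34 h) e.symm.toMonoidHom e.symm.injective))
  · exact Or.inr (Or.inr (Or.inl (k3_of_inj (k3_u34 h) e.symm.toMonoidHom e.symm.injective)))
  · exact Or.inr (Or.inr (Or.inr (Or.inr (Or.inr (Or.inr (Or.inr h))))))

end Cfsg.Agent.L4.L2
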