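import Cfsg.Agent.L4.SolvB

/-!
Linear groups of odd order in dimension four and characteristic two are solvable.
-/

set_option autoImplicit false

namespace Cfsg.Agent.L4.Solv

variable {k : Type*} [Field k] [IsAlgClosed k] [CharP k 2]

theorem solv {H : Type*} [Group H] [Finite H] (m : H →* Matrix (Fin 4) (Fin 4) k)
    (inj : Function.Injective m) (ho : Odd (Nat.card H)) : Group.IsSolvable H := by
  obtain ⟨_, ⟨n, rfl⟩, hn⟩ := exists_minimal_of_wellFoundedLT
    (fun T : Subgroup H => ∃ n, derivedSeries H n = T) ⟨⊤, 0, rfl⟩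
  have hp : ⁅derivedSeries H n, derivedSeries H n⁆ = derivedSeries H n :=
    le_antisymm (Subgroup.commutator_le_left _ _) (hn ⟨n + 1, rfl⟩
      (Subgroup.commutator_le_left _ _))
  refine ⟨n, (Subgroup.eq_bot_iff_forall _).2 fun g hg => inj ?_⟩
  have := triv _ (Fin 4 → k) (derivedSeries H n)
    ((Matrix.toLinAlgEquiv' (R := k) (n := Fin 4)).toMonoidHom.comp
      (m.comp (derivedSeries H n).subtype)) rfl (by simp)
    (ho.of_dvd_nat (Subgroup.card_subgroup_dvd_card _)) (H6.M3.perfect_top hp) ⟨g, hg⟩
  rw [map_one]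
  exact (Matrix.toLinAlgEquiv' (R := k) (n := Fin 4)).injective (this.trans (map_one _).symm)

theorem solv_sub (G : Subgroup (GL (Fin 4) k)) [Finite G] :
    ∀ H : Subgroup G, Odd (Nat.card H) → Group.IsSolvable H := fun H ho =>
  solv ((Units.coeHom _).comp (G.subtype.comp H.subtype))
    (Units.val_injective.comp (G.subtype_injective.comp H.subtype_injective)) ho

end Cfsg.Agent.L4.Solv
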