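import Cfsg.Agent.H1.Sp4F
import Cfsg.Agent.H6.T2
import Cfsg.Agent.H6.N6
import Cfsg.Agent.H6.MC5

/-!
Linear groups of odd order in dimension at most three.
-/

set_option autoImplicit false

namespace Cfsg.Agent.L4.Solv

open Module Matrix MulAction Cfsg.Agent.H6 Cfsg.Agent.H6.M3 Cfsg.Agent.H1.Sp4
open scoped MatrixGroups commutatorElement

theorem eq_one_of_sq {G : Type*} [Group G] [Finite G] (h : Odd (Nat.card G)) {t : G}
    (ht : t * t = 1) : t = 1 :=
  orderOf_eq_one_iff.1 (Nat.eq_one_of_dvd_coprimes h.coprime_two_right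
    (orderOf_dvd_natCard t) (orderOf_dvd_of_pow_eq_one (by rwa [pow_two])))

theorem odd_fix {p : ℕ} {G X : Type*} [Group G] [MulAction G X] [Finite G] (h : Mob p G X)
    (ho : Odd (Nat.card G)) : ∃ x : X, ∀ g : G, g • x = x := by
  have ev : ∀ n, Nat.card G = n → Even n → False := fun n e e' =>
    Nat.not_even_iff_odd.2 ho (e ▸ e')
  rcases h.dickson with ⟨x, e⟩ | ⟨x, y, a, e⟩ | ⟨-, ⟨e⟩⟩ | ⟨-, ⟨e⟩⟩ | ⟨-, -, ⟨e⟩⟩ | ⟨x, b⟩
  · exact ⟨x, fun g => e.ge (Subgroup.mem_top g)⟩
  · refine ⟨x, fun g => (e.ge (Subgroup.mem_top g)).elim (fun c => c.1) fun c => ?_⟩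
    rw [eq_one_of_sq ho (h.sq_of_swap a c.1 c.2), one_smul]
  · exact (ev _ ((Nat.card_congr e.toEquiv).trans Pg.card_a4) (by decide)).elim
  · exact (ev _ ((Nat.card_congr e.toEquiv).trans Pg.card_s4) (by decide)).elim
  · exact (ev _ ((Nat.card_congr e.toEquiv).trans Pg.card_a5) (by decide)).elim
  · have h1 := ho.of_dvd_nat (Subgroup.card_subgroup_dvd_card (h.P x))
    have h2 := ho.of_dvd_nat (stabilizer G x).index_dvd_card
    rw [b.index] at h2
    exact absurd h1 (Nat.not_odd_iff_even.2 (by simpa [parity_simps] using h2))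

variable {k : Type*} [Field k] [IsAlgClosed k] (p : ℕ) [Fact p.Prime] [CharP k p]
  {H : Type*} [Group H] [Finite H]

include p in
theorem eig2 {M : Type*} [AddCommGroup M] [Module k M] [FiniteDimensional k M]
    (ho : Odd (Nat.card H)) (ρ : H →* Module.End k M) {Y : Submodule k M} (h0 : Y ≠ ⊥)
    (h2 : finrank k Y ≤ 2) (hY : ∀ g, ∀ y ∈ Y, ρ g y ∈ Y) :
    ∃ y ∈ Y, y ≠ 0 ∧ ∀ g, ∃ c : k, ρ g y = c • y := by
  have h1 : finrank k Y ≠ 0 := fun e => h0 (Submodule.finrank_eq_zero.1 e)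
  obtain h | h : finrank k Y = 1 ∨ finrank k Y = 2 := by omega
  · obtain ⟨y, hy, hy0⟩ := (Submodule.ne_bot_iff _).1 h0
    refine ⟨y, hy, hy0, fun g => ?_⟩
    obtain ⟨c, hc⟩ := (finrank_eq_one_iff_of_nonzero' (⟨y, hy⟩ : Y)
      (fun e => hy0 (congrArg Subtype.val e))).1 h ⟨_, hY g y hy⟩
    exact ⟨c, (congrArg Subtype.val hc).symm⟩
  · obtain ⟨b⟩ := exists_br2 (fun g => ρ g) ⊤ Y h (by simp) (by simp) fun g _ => hY g
    have := b.finite_img ⊤
    obtain ⟨x, hx⟩ := odd_fix ((Pg.mob p).subgroup (b.img ⊤))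
      (ho.of_dvd_nat ((b.card_img_dvd ⊤).trans (by simp)))
    obtain ⟨y, hy, hy0, rfl⟩ := b.surj x
    exact ⟨y, hy, hy0, fun g => (b.fix_iff trivial hy hy0).1 (hx ⟨_, b.π_mem le_rfl trivial⟩)⟩

include p in
theorem even3 {Γ : Type*} [Group Γ] [Finite Γ] (ρ : PR Γ k) (hi : ρ.Irr)
    (hP : ⁅(⊤ : Subgroup Γ), (⊤ : Subgroup Γ)⁆ = ⊤) (ho : Odd (Nat.card Γ)) : False := by
  classical
  have hne : (⊤ : Subgroup Γ) ≠ ⊥ := fun e => by
    obtain ⟨A, ⟨g, hA⟩, h⟩ := hi.pt ![1, 0, 0] (by simp)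
    obtain ⟨c, rfl⟩ := (ρ.eq_one_iff hA).1 (Subgroup.mem_bot.1 (e ▸ Subgroup.mem_top g))
    exact h c (by simp [smul_mulVec])
  have hP' : commutator Γ = ⊤ := hP
  have inv : ∀ {Δ : Type _} [Group Δ] [Finite Δ] (τ : PR Δ k), Odd (Nat.card Δ) →
      τ.In !![0, 1, 0; 1, 0, 0; 0, 0, -1] → False := fun τ ho ⟨g, hg⟩ => by
    have h1 := τ.mul hg hg
    rw [mul_fin_three] at h1
    have h2 := eq_one_of_sq ho (τ.eq_one (c := 1) (by
      convert h1 using 1; simp [eq9]))
    obtain ⟨c, hc⟩ := (τ.eq_one_iff hg).1 h2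
    simp [eq9] at hc
  obtain ⟨T, -, hT⟩ := exists_minN (N := (⊤ : Subgroup Γ)) inferInstance hne
  rcases hT.cases with ab | hp
  · rcases hi.abel hT.nor hT.ne ab with h | ⟨x, c, h, hN⟩
    · obtain ⟨B, B', σ, h⟩ := h.mf
      have e : ∀ g, σ g = 1 := fun g => Equiv.ext fun i => by
        have := H2.Zass.eq_top_of_index_le hP' ((stabilizer (Equiv.Perm (Fin 3)) i).comap σ) (by
          refine le_trans ?_ (show 3 ≤ 4 by norm_num)
          rw [Subgroup.index_comap]
          refine (Subgroup.relIndex_le_of_le_right le_top ?_).trans ?_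
          · rw [Subgroup.relIndex_top_right]; exact Subgroup.index_ne_zero_of_finite
          · rw [Subgroup.relIndex_top_right, index_stabilizer]
            exact (Set.ncard_le_card _).trans (by simp))
        exact this.ge (Subgroup.mem_top g)
      exact hne (H9.perfect_eq_bot_of_comm hP fun a _ b _ => PR.T0_comm (h.T0 (e a) (e b)))
    · have hx : ∀ g : Γ, g * x = x * g := by
        have h1 : (stabilizer (ConjAct Γ) x).index ≤ 4 := by
          rw [index_stabilizer]
          have h9 := h.card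
          let S : Set Γ := orbit (ConjAct Γ) x
          have hS : ∀ y ∈ S, y ∈ RR x c ∧ y ≠ 1 ∧ y⁻¹ ∉ S := by
            rintro _ ⟨g, rfl⟩
            refine ⟨hN.conj_mem _ h.mem_left _, fun e => h.ne (by
              simpa [ConjAct.smul_def] using e), fun ⟨g', e⟩ => ?_⟩
            have e1 : (ConjAct.ofConjAct (g⁻¹ * g')) * x * (ConjAct.ofConjAct (g⁻¹ * g'))⁻¹ = x⁻¹ := by
              have : (g⁻¹ * g') • x = x⁻¹ := by
                rw [mul_smul, show g' • x = (g • x)⁻¹ from e, smul_inv', inv_smul_smul]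
              simpa [ConjAct.smul_def] using this
            generalize ConjAct.ofConjAct (g⁻¹ * g') = s at e1
            obtain ⟨m, hm⟩ := ho
            have e2 : ∀ n : ℕ, s ^ (2 * n + 1) * x * (s ^ (2 * n + 1))⁻¹ = x⁻¹ := fun n => by
              induction n with
              | zero => simpa using e1
              | succ n ih =>
                calc _ = s * (s * (s ^ (2 * n + 1) * x * (s ^ (2 * n + 1))⁻¹) * s⁻¹) * s⁻¹ := by group
                  _ = x⁻¹ := by
                    rw [ih, show s * x⁻¹ * s⁻¹ = (s * x * s⁻¹)⁻¹ by group, e1, inv_inv, e1]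
            have e3 := e2 m
            rw [← hm, pow_card_eq_one', one_mul, inv_one, mul_one] at e3
            exact h.ne (eq_one_of_sq ⟨m, hm⟩ (mul_eq_one_iff_eq_inv.2 e3))
          have h2 : (S ∪ S⁻¹ ∪ {1}).ncard ≤ 9 := by
            rw [← h9, ← SetLike.coe_sort_coe, Nat.card_coe_set_eq]
            refine Set.ncard_le_ncard ?_ (Set.toFinite _)
            rintro y ((hy | hy) | rfl)
            exacts [(hS y hy).1, by simpa using inv_mem (hS _ hy).1, one_mem _]
          rw [Set.ncard_union_eq (by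
            rw [Set.disjoint_singleton_right]
            rintro (e | e)
            exacts [(hS 1 e).2.1 rfl, (hS _ e).2.1 inv_one]), Set.ncard_union_eq (by
            rw [Set.disjoint_left]
            exact fun y hy e => (hS y hy).2.2 e), Set.ncard_inv, Set.ncard_singleton] at h2
          change S.ncard ≤ 4
          omega
        have h2 := H2.Zass.eq_top_of_index_le hP'
          ((stabilizer (ConjAct Γ) x).comap ConjAct.toConjAct.toMonoidHom) (by
            rwa [Subgroup.index_comap_of_surjective _ ConjAct.toConjAct.surjective])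
        intro g
        have : ConjAct.toConjAct g • x = x := h2.ge (Subgroup.mem_top g)
        simpa [ConjAct.smul_def, mul_inv_eq_iff_eq_mul] using this
      have h3 : IsPGroup 3 Γ := fun g => ⟨2, by
        rw [pow_two, pow_mul]; exact h.cube' (h.free' hN h.mem_left h.ne (hx g))⟩
      have : Fact (Nat.Prime 3) := ⟨Nat.prime_three⟩
      have := h3.isNilpotent
      obtain ⟨⟨g, hg⟩, h1⟩ := (Subgroup.ne_bot_iff_exists_ne_one).1 hne
      exact h1 (Subtype.ext (H2.Zass.map_eq_one_of_perfect hP' (MonoidHom.id Γ) g))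
  · haveI := hi.simple hT hp
    have hi' := hi.normal hT.nor le_rfl hp hT.ne
    have ho' := ho.of_dvd_nat (Subgroup.card_subgroup_dvd_card T)
    have hna : ¬ ∀ x y : T, x * y = y * x := fun e => hT.ne (H9.perfect_eq_bot_of_comm hp
      fun a ha b hb => congrArg Subtype.val (e ⟨a, ha⟩ ⟨b, hb⟩))
    have lin : ((ρ.sub T).Sm fun τ => ∃ F0, τ.Lin F0) → False := fun ⟨B, B', hB, F0, h⟩ =>
      inv _ ho' (h.le _ (by simp [Fin.forall_fin_succ]) (by simp [dm3]))
    have uni : ∀ σ, ((ρ.sub T).Sm fun τ => τ.Uni σ) → False := fun σ ⟨B, B', hB, h⟩ =>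
      inv _ ho' (h.le _ (by simp [dm3]) (by simp [map3, tm3, mul_fin_three, eq9]))
    by_cases h2 : p = 2
    · subst h2
      rcases PR.trich_two hna hi' with h | ⟨n, -, h⟩ | ⟨⟨e⟩, -⟩
      · exact lin h
      · exact uni _ h
      · rw [Nat.card_congr e.toEquiv, nat_card_alternatingGroup] at ho'
        revert ho'; simp; decide
    · rcases PR.trichotomy h2 hi' (perfect_top hp) (fun e => hT.ne (by
        simpa [← MonoidHom.range_eq_map] using congrArg (Subgroup.map T.subtype) e)) with h | ⟨n, -, h⟩ | h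
      · exact lin h
      · exact uni _ h
      · letI := Fintype.ofFinite T
        exact Nat.not_even_iff_odd.2 ho' (PR.St.even (p := p) ⟨h, hna⟩)

end Cfsg.Agent.L4.Solv
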