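import Cfsg.Agent.L4.SolvA
import Cfsg.Agent.H4.CAOdd2

/-!
Perfect linear groups of odd order in dimension at most four and characteristic two are trivial.
-/

set_option autoImplicit false

namespace Cfsg.Agent.L4.Solv

open Module Matrix MulAction Cfsg.Agent.H6 Cfsg.Agent.H6.M3
open scoped commutatorElement

universe u v

/-- a multiplicatively closed subset of a finite group -/
def sb {G : Type*} [Group G] [Finite G] (S : G → Prop) (h1 : S 1)
    (hm : ∀ a b, S a → S b → S (a * b)) : Subgroup G where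
  carrier := {g | S g}
  one_mem' := h1
  mul_mem' ha hb := hm _ _ ha hb
  inv_mem' {a} ha := by
    have e : ∀ n : ℕ, S (a ^ n) := fun n => by
      induction n with
      | zero => rwa [pow_zero]
      | succ n ih => rw [pow_succ]; exact hm _ _ ih ha
    have := e (orderOf a - 1)
    rwa [← mul_inv_cancel_right (a ^ _) a, ← pow_succ, Nat.sub_add_cancel (orderOf_pos a),
      pow_orderOf_eq_one, one_mul] at this

variable {k : Type*} [Field k] [IsAlgClosed k] [CharP k 2]

section
variable {V : Type u} [AddCommGroup V] [Module k V] [FiniteDimensional k V]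
  {H : Type v} [Group H] [Finite H]

omit [IsAlgClosed k] [FiniteDimensional k V] in
theorem uni (ho : Odd (Nat.card H)) (ρ : H →* End k V) (W : Submodule k V) (g : H)
    (h1 : ∀ w ∈ W, ρ g w = w) (h2 : ∀ v, ρ g v - v ∈ W) : ρ g = 1 := by
  have h3 : ρ g ^ 2 = 1 := by
    ext v
    have e := h1 _ (h2 v)
    have e2 : (2 : k) • ρ g v = (2 : k) • v := by rw [CharTwo.two_eq_zero, zero_smul, zero_smul]
    rw [map_sub] at e
    rw [two_smul, two_smul] at e2
    rw [pow_two, End.mul_apply, End.one_apply]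
    rw [sub_eq_iff_eq_add.1 e, sub_add_eq_add_sub, e2, add_sub_cancel_right]
  obtain ⟨m, hm⟩ := ho
  have : ρ g ^ (2 * m + 1) = 1 := by rw [← hm, ← map_pow, pow_card_eq_one', map_one]
  rwa [pow_succ, pow_mul, h3, one_pow, one_mul] at this

omit [IsAlgClosed k] [CharP k 2] [Finite H] in
theorem comm1 (h : finrank k V ≤ 1) (ρ : H →* End k V) (a b : H) : ρ ⁅a, b⁆ = 1 := by
  obtain ⟨v, hv⟩ := finrank_le_one_iff.1 h
  have e : ρ a * ρ b = ρ b * ρ a := by
    ext w
    obtain ⟨c, rfl⟩ := hv w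
    obtain ⟨x, hx⟩ := hv (ρ a v)
    obtain ⟨y, hy⟩ := hv (ρ b v)
    simp only [End.mul_apply, map_smul, ← hx, ← hy, smul_smul]
    congr 1; ring
  rw [commutatorElement_def, map_mul, map_mul, map_mul, e, mul_assoc (ρ b), ← map_mul,
    mul_inv_cancel, map_one, mul_one, ← map_mul, mul_inv_cancel, map_one]

omit [IsAlgClosed k] [FiniteDimensional k V] in
theorem uni' (ho : Odd (Nat.card H)) (ρ : H →* End k V) (W : Submodule k V)
    (hW : ∀ g, W ≤ W.comap (ρ g)) (g : H)
    (h1 : Representation.subrepresentation ρ W hW g = 1)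
    (h2 : Representation.quotient ρ W hW g = 1) : ρ g = 1 :=
  uni ho ρ W g (fun w hw => congrArg Subtype.val (LinearMap.congr_fun h1 ⟨w, hw⟩))
    fun v => (Submodule.Quotient.eq W).1 (LinearMap.congr_fun h2 (W.mkQ v))

theorem comm2 (ho : Odd (Nat.card H)) (h : finrank k V ≤ 2) (ρ : H →* End k V) (a b : H) :
    ρ ⁅a, b⁆ = 1 := by
  by_cases h1 : finrank k V ≤ 1
  · exact comm1 h1 ρ a b
  obtain ⟨y, -, hy, e⟩ := eig2 2 ho ρ (Y := ⊤) (fun e => h1 (by
    rw [← finrank_top, e]; simp)) (by simpa using h) (by simp)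
  have hW : ∀ g, (k ∙ y) ≤ (k ∙ y).comap (ρ g) := fun g => by
    obtain ⟨c, hc⟩ := e g
    rw [Submodule.span_singleton_le_iff_mem, Submodule.mem_comap, hc]
    exact Submodule.smul_mem _ _ (Submodule.mem_span_singleton_self y)
  have h2 := finrank_span_singleton (K := k) hy
  have h3 := (k ∙ y).finrank_quotient_add_finrank
  exact uni' ho ρ _ hW _ (comm1 h2.le _ a b) (comm1 (by omega) _ a b)

theorem comm2' (ho : Odd (Nat.card H)) (ρ : H →* End k V) (W : Submodule k V)
    (h : finrank k W ≤ 2) {a b : H} (ha : W ≤ W.comap (ρ a)) (hb : W ≤ W.comap (ρ b)) :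
    ∀ w ∈ W, ρ ⁅a, b⁆ w = w := by
  let K : Subgroup H := sb (fun g => W ≤ W.comap (ρ g)) (fun w hw => by simpa using hw)
    fun g g' hg hg' w hw => by simpa using hg (hg' hw)
  intro w hw
  exact congrArg Subtype.val (LinearMap.congr_fun (comm2 (ho.of_dvd_nat
    (Subgroup.card_subgroup_dvd_card K)) h (Representation.subrepresentation (ρ.comp K.subtype) W
      fun g => g.2) ⟨a, ha⟩ ⟨b, hb⟩) ⟨w, hw⟩)

omit [IsAlgClosed k] in
theorem ss (ho : Odd (Nat.card H)) (ρ : H →* End k V) (g : H) : (ρ g).IsSemisimple := by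
  refine End.isSemisimple_of_squarefree_aeval_eq_zero
    ((Polynomial.X_pow_sub_one_separable_iff (n := Nat.card H)).2 ?_).squarefree ?_
  · rw [Ne, CharP.cast_eq_zero_iff k 2, ← even_iff_two_dvd]
    exact Nat.not_even_iff_odd.2 ho
  · rw [map_sub, map_pow, Polynomial.aeval_X, ← map_pow, pow_card_eq_one', map_one, map_one,
      sub_self]

omit [IsAlgClosed k] [CharP k 2] [Finite H] [FiniteDimensional k V] in
theorem perf_of {M : Type*} [Monoid M] (hP : commutator H = ⊤) (ρ : H →* M)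
    (h : ∀ a b : H, ρ ⁅a, b⁆ = 1) (g : H) : ρ g = 1 := by
  have : commutator H ≤ ρ.toHomUnits.ker := Subgroup.commutator_le.2 fun a _ b _ =>
    Units.ext (h a b)
  exact congrArg Units.val (this (hP.ge (Subgroup.mem_top g)))

theorem three (ho : Odd (Nat.card H)) (hP : commutator H = ⊤) (ρ : H →* End k V)
    (h : finrank k V = 3) (hi : ∀ W : Submodule k V, (∀ g, W ≤ W.comap (ρ g)) → W = ⊥ ∨ W = ⊤) :
    False := by
  let b : Basis (Fin 3) k V := Module.finBasisOfFinrankEq k V h
  let m : H →* Mt k := (LinearMap.toMatrixAlgEquiv b).toMonoidHom.comp ρ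
  have hm : ∀ g v, m g *ᵥ b.equivFun v = b.equivFun (ρ g v) := fun g v =>
    LinearMap.toMatrix_mulVec_repr b b (ρ g) v
  let Z : Subgroup H := sb (fun g => ∃ c : k, m g = c • 1) ⟨1, by simp⟩
    fun g g' ⟨c, hc⟩ ⟨c', hc'⟩ => ⟨c * c', by rw [map_mul, hc, hc', smul_mul_smul_comm, one_mul]⟩
  haveI : Z.Normal := ⟨fun n ⟨c, hc⟩ g => ⟨c, by
    rw [map_mul, map_mul, hc, mul_smul_comm, smul_mul_assoc, mul_one, ← map_mul, mul_inv_cancel,
      map_one]⟩⟩
  let τ : PR (H ⧸ Z) k := PR.ofHom m (QuotientGroup.mk' Z) (QuotientGroup.mk'_surjective Z)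
    fun x => QuotientGroup.eq_one_iff x
  have hτ : ∀ g, τ.In (m g) := fun g => ⟨_, PR.ofHom_L g⟩
  refine even3 2 τ (PR.Irr.mk' (fun v hv => ?_) fun φ hφ => ?_) ?_
    (ho.of_dvd_nat (Subgroup.card_quotient_dvd_card Z))
  · by_contra! hc
    obtain ⟨w, rfl⟩ := b.equivFun.surjective v
    have hw : w ≠ 0 := fun e => hv (by rw [e, map_zero])
    rcases hi (k ∙ w) (fun g => by
      obtain ⟨c, hc⟩ := hc _ (hτ g)
      rw [hm, ← map_smul] at hc
      rw [Submodule.span_singleton_le_iff_mem, Submodule.mem_comap, b.equivFun.injective hc]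
      exact Submodule.smul_mem _ _ (Submodule.mem_span_singleton_self w)) with e | e
    · exact hw (Submodule.span_singleton_eq_bot.1 e)
    · have := finrank_span_singleton (K := k) hw
      rw [e, finrank_top] at this
      omega
  · by_contra! hc
    let f : V →ₗ[k] k := (dotProductBilin k k φ).comp b.equivFun.toLinearMap
    have hf : ∀ v, f v = φ ⬝ᵥ b.equivFun v := fun v => rfl
    rcases hi (LinearMap.ker f) (fun g v hv => by
      obtain ⟨c, hc⟩ := hc _ (hτ g)
      rw [LinearMap.mem_ker, hf] at hv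
      rw [Submodule.mem_comap, LinearMap.mem_ker, hf, ← hm, dotProduct_mulVec, hc, smul_dotProduct,
        hv, smul_zero]) with e | e
    · have := f.finrank_range_add_finrank_ker
      have h2 := (LinearMap.range f).finrank_le
      rw [e] at this
      simp at this h2
      omega
    · refine hφ (dotProduct_eq_zero_iff.1 fun w => ?_)
      obtain ⟨w, rfl⟩ := b.equivFun.surjective w
      exact e.ge (Submodule.mem_top (x := w))
  · have := congrArg (Subgroup.map (QuotientGroup.mk' Z)) hP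
    rwa [commutator_def, Subgroup.map_commutator,
      Subgroup.map_top_of_surjective _ (QuotientGroup.mk'_surjective Z)] at this

omit [IsAlgClosed k] [Finite H] in
theorem scal4 (hP : commutator H = ⊤) (ρ : H →* End k V) (h : finrank k V = 4) {g : H} {c : k}
    (e : ∀ v, ρ g v = c • v) : ρ g = 1 := by
  have h1 : LinearMap.det (ρ g) = 1 := perf_of hP (LinearMap.det.comp ρ) (fun a b => by
    have e : ∀ x y : H, (LinearMap.det.comp ρ) x * (LinearMap.det.comp ρ) x⁻¹ = 1 := fun x y => by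
      rw [← map_mul, mul_inv_cancel, map_one]
    rw [commutatorElement_def, map_mul, map_mul, map_mul]
    linear_combination (exp := 1) (LinearMap.det.comp ρ) b * (LinearMap.det.comp ρ) b⁻¹ * e a a +
      e b b) g
  have h2 : ρ g = c • 1 := LinearMap.ext e
  rw [h2, LinearMap.det_smul, h, map_one, mul_one] at h1
  have h3 : (c - 1) ^ 2 ^ 2 = 0 := by rw [sub_pow_char_pow, one_pow]; exact sub_eq_zero.2 h1
  rw [h2, sub_eq_zero.1 (pow_eq_zero_iff (by norm_num) |>.1 h3), one_smul]

theorem abel4 (ho : Odd (Nat.card H)) (hP : commutator H = ⊤) (ρ : H →* End k V)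
    (h : finrank k V = 4) (hi : ∀ W : Submodule k V, (∀ g, W ≤ W.comap (ρ g)) → W = ⊥ ∨ W = ⊤)
    {T : Subgroup H} (hT : T.Normal) (ab : ∀ a ∈ T, ∀ b ∈ T, a * b = b * a) {t : H} (ht : t ∈ T) :
    ρ t = 1 := by
  classical
  have hs : ∀ g μ, (ρ g).maxGenEigenspace μ = (ρ g).eigenspace μ := fun g μ =>
    (ss ho ρ g).isFinitelySemisimple.maxGenEigenspace_eq_eigenspace μ
  have hm : ∀ (i j : T) (φ : k), Set.MapsTo (ρ i) ((ρ j).maxGenEigenspace φ)
      ((ρ j).maxGenEigenspace φ) := fun i j φ v hv => by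
    rw [hs, SetLike.mem_coe, End.mem_eigenspace_iff] at hv ⊢
    rw [← End.mul_apply, ← map_mul, ab _ j.2 _ i.2, map_mul, End.mul_apply, hv, map_smul]
  have ind := End.independent_iInf_maxGenEigenspace_of_forall_mapsTo (fun i : T => ρ i) hm
  have top := End.iSup_iInf_maxGenEigenspace_eq_top_of_forall_mapsTo (fun i : T => ρ i) hm
    fun i => End.iSup_maxGenEigenspace_eq_top _
  simp only [hs] at ind top
  set W : (T → k) → Submodule k V := fun χ => ⨅ i : T, (ρ i).eigenspace (χ i) with hW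
  have mem : ∀ χ v, v ∈ W χ ↔ ∀ i : T, ρ i v = χ i • v := fun χ v => by
    simp [hW, End.mem_eigenspace_iff]
  letI : MulAction H (T → k) :=
    { smul := fun g χ i => χ ⟨g⁻¹ * i * g, hT.conj_mem' _ i.2 g⟩
      one_smul := fun χ => funext fun i => congrArg χ (Subtype.ext (by simp))
      mul_smul := fun g g' χ => funext fun i => congrArg χ (Subtype.ext (by simp [mul_assoc])) }
  have act : ∀ (g : H) χ v, v ∈ W χ → ρ g v ∈ W (g • χ) := fun g χ v hv => (mem _ _).2 fun i => by
    have := congrArg (ρ g) ((mem _ _).1 hv ⟨g⁻¹ * i * g, hT.conj_mem' _ i.2 g⟩)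
    rwa [map_smul, ← End.mul_apply, ← map_mul, ← mul_assoc, mul_inv_cancel_left, map_mul,
      End.mul_apply] at this
  obtain ⟨χ, hχ⟩ : ∃ χ, W χ ≠ ⊥ := by
    by_contra! hc
    rw [← finrank_top, ← top, iSup_eq_bot.2 hc] at h
    simp at h
  have h1 : (stabilizer H χ).index ≤ 4 := by
    letI := ind.fintypeNeBotOfFiniteDimensional
    rw [index_stabilizer, ← h]
    refine le_trans ?_ ind.subtype_ne_bot_le_finrank
    rw [← Nat.card_eq_fintype_card]
    refine Set.ncard_le_ncard (t := {χ | W χ ≠ ⊥}) ?_ (Set.finite_coe_iff.1 (Finite.of_fintype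
      {χ // W χ ≠ ⊥}))
    rintro _ ⟨g, rfl⟩ e
    refine hχ ((Submodule.eq_bot_iff _).2 fun v hv => ?_)
    have := (Submodule.eq_bot_iff _).1 e _ (act g χ v hv)
    rw [← End.one_apply (R := k) v, ← map_one ρ, ← inv_mul_cancel g, map_mul, End.mul_apply, this,
      map_zero]
  have h2 := H2.Zass.eq_top_of_index_le hP _ h1
  rcases hi (W χ) (fun g v hv => by
    have := act g χ v hv
    rwa [show g • χ = χ from h2.ge (Subgroup.mem_top g)] at this) with e | e
  · exact (hχ e).elim
  · exact scal4 hP ρ h fun v => (mem _ _).1 (e.ge Submodule.mem_top) ⟨t, ht⟩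

theorem simple4 [IsSimpleGroup H] (ho : Odd (Nat.card H)) (hP : commutator H = ⊤)
    (ρ : H →* End k V) (inj : ∀ g, ρ g = 1 → g = 1) (h : finrank k V = 4) : False := by
  classical
  have hna : ¬ ∀ x y : H, x * y = y * x := fun e => by
    obtain ⟨g, hg⟩ := exists_ne (1 : H)
    exact hg (perf_of hP (MonoidHom.id H) (fun a b => commutatorElement_eq_one_iff_mul_comm.2
      (e a b)) g)
  have hom : ∀ x : H, x ≠ 1 → ∀ μ, finrank k ((ρ x).eigenspace μ) ≤ 2 := fun x hx μ => by
    by_contra! hc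
    have r : ∀ g : H, finrank k (LinearMap.range (ρ (g * x * g⁻¹) - μ • 1)) ≤ 1 := fun g => by
      have e1 := (ρ x - μ • (1 : End k V)).finrank_range_add_finrank_ker
      rw [End.eigenspace_def] at hc
      have e2 : ρ (g * x * g⁻¹) - μ • 1 = ρ g * (ρ x - μ • 1) * ρ g⁻¹ := by
        rw [mul_sub, sub_mul, mul_smul_comm, smul_mul_assoc, mul_one, ← map_mul, ← map_mul,
          ← map_mul, mul_inv_cancel, map_one]
      rw [e2, End.mul_eq_comp, End.mul_eq_comp, LinearMap.comp_assoc, LinearMap.range_comp]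
      refine (Submodule.finrank_map_le _ _).trans ((Submodule.finrank_mono
        (LinearMap.range_comp_le_range _ _)).trans (by omega))
    have cm : ∀ a ∈ Group.conjugatesOfSet {x}, ∀ b ∈ Group.conjugatesOfSet {x},
        Commute a b := fun a ha b hb => by
      obtain ⟨y, hy, ha⟩ := Group.mem_conjugatesOfSet_iff.1 ha
      obtain ⟨z, hz, hb⟩ := Group.mem_conjugatesOfSet_iff.1 hb
      obtain ⟨g, hg⟩ := isConj_iff.1 ha
      obtain ⟨g', hg'⟩ := isConj_iff.1 hb
      have r1 := r g
      have r2 := r g'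
      rw [← show y = x from hy, hg] at r1
      rw [← show z = x from hz, hg'] at r2
      let U := LinearMap.range (ρ a - μ • 1) ⊔ LinearMap.range (ρ b - μ • 1)
      have hU : finrank k U ≤ 2 := (Submodule.finrank_add_le_finrank_add_finrank _ _).trans
        (by omega)
      have ha : ∀ v, ρ a v - μ • v ∈ U := fun v => Submodule.mem_sup_left ⟨v, rfl⟩
      have hb : ∀ v, ρ b v - μ • v ∈ U := fun v => Submodule.mem_sup_right ⟨v, rfl⟩
      have hc : ∀ {c : H}, (∀ v, ρ c v - μ • v ∈ U) → U ≤ U.comap (ρ c) := fun hc v hv => by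
        simpa using add_mem (hc v) (U.smul_mem μ hv)
      refine commutatorElement_eq_one_iff_commute.1 (inj _ (uni ho ρ U _
        (comm2' ho ρ U hU (hc ha) (hc hb)) fun v => ?_))
      obtain ⟨w, rfl⟩ : ∃ w, v = ρ b (ρ a w) := ⟨ρ (a⁻¹ * b⁻¹) v, by
        rw [← End.mul_apply, ← End.mul_apply, ← map_mul, ← map_mul]; simp [mul_assoc]⟩
      have e : ρ ⁅a, b⁆ (ρ b (ρ a w)) = ρ a (ρ b w) := by
        simp only [← End.mul_apply, ← map_mul, commutatorElement_def]; congr 2; group
      rw [e]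
      convert sub_mem (add_mem (ha (ρ b w)) (U.smul_mem μ (hb w)))
        (add_mem (hb (ρ a w)) (U.smul_mem μ (ha w))) using 1
      module
    rcases (Subgroup.normalClosure_normal (s := {x})).eq_bot_or_eq_top with e | e
    · exact hx (Subgroup.mem_bot.1 (e ▸ Subgroup.subset_normalClosure rfl))
    · refine hna fun a b => ?_
      have ha : a ∈ Subgroup.closure (Group.conjugatesOfSet {x}) := e.ge (Subgroup.mem_top a)
      have hb : b ∈ Subgroup.closure (Group.conjugatesOfSet {x}) := e.ge (Subgroup.mem_top b)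
      refine Subgroup.closure_induction₂ (p := fun a b _ _ => Commute a b) (fun a b h h' => cm a h b h')
        (fun _ _ => Commute.one_left _) (fun _ _ => Commute.one_right _)
        (fun _ _ _ _ _ _ => Commute.mul_left) (fun _ _ _ _ _ _ => Commute.mul_right)
        (fun _ _ _ _ => Commute.inv_left) (fun _ _ _ _ => Commute.inv_right) ha hb
  letI := Fintype.ofFinite H
  refine H4.CAOdd2.no_odd hna (fun a b c _ hb _ h1 h2 => ?_) ho
  have e : ∀ {d : H}, Commute d b → ∀ μ, (ρ b).eigenspace μ ≤ ((ρ b).eigenspace μ).comap (ρ d) :=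
    fun hd μ v hv => by
      rw [Submodule.mem_comap]
      rw [End.mem_eigenspace_iff] at hv ⊢
      rw [← End.mul_apply, ← map_mul, ← hd.eq, map_mul, End.mul_apply, hv, map_smul]
  refine commutatorElement_eq_one_iff_commute.1 (inj _ ?_)
  have : LinearMap.ker (ρ ⁅a, c⁆ - 1) = ⊤ := by
    rw [eq_top_iff, ← (ss ho ρ b).iSup_eigenspace_eq_top]
    exact iSup_le fun μ v hv => sub_eq_zero.2
      (comm2' ho ρ _ (hom b hb μ) (e h1 μ) (e h2.symm μ) v hv)
  exact sub_eq_zero.1 (LinearMap.ker_eq_top.1 this)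

end

theorem triv (n : ℕ) : ∀ (V : Type u) [AddCommGroup V] [Module k V] [FiniteDimensional k V]
    (H : Type v) [Group H] [Finite H] (ρ : H →* End k V), finrank k V + Nat.card H = n →
    finrank k V ≤ 4 → Odd (Nat.card H) → commutator H = ⊤ → ∀ g, ρ g = 1 := by
  induction n using Nat.strong_induction_on with | _ n ih => ?_
  intro V _ _ _ H _ _ ρ hn h4 ho hP
  by_cases hi : ∀ W : Submodule k V, (∀ g, W ≤ W.comap (ρ g)) → W = ⊥ ∨ W = ⊤
  swap
  · push Not at hi
    obtain ⟨W, hW, h0, h1⟩ := hi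
    have e1 := Submodule.finrank_lt h1
    have e2 := W.finrank_quotient_add_finrank
    have e3 : finrank k W ≠ 0 := fun e => h0 (Submodule.finrank_eq_zero.1 e)
    exact fun g => uni' ho ρ W hW g (ih _ (by omega) W H _ rfl (by omega) ho hP g)
      (ih _ (by omega) (V ⧸ W) H _ rfl (by omega) ho hP g)
  by_cases h2 : finrank k V ≤ 2
  · exact perf_of hP ρ (comm2 ho h2 ρ)
  by_cases h3 : finrank k V = 3
  · exact (three ho hP ρ h3 hi).elim
  have h : finrank k V = 4 := by omega
  have lt : ∀ T : Subgroup H, T ≠ ⊤ → Nat.card T < Nat.card H := fun T hT => by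
    have := T.card_mul_index
    have h1 : 1 < T.index := Subgroup.one_lt_index_of_ne_top hT
    have h2 : 0 < Nat.card T := Nat.card_pos
    nlinarith
  let K := ρ.toHomUnits.ker
  have hK : ∀ g, g ∈ K ↔ ρ g = 1 := fun g => by simp [K, Units.ext_iff]
  by_cases h0 : K = ⊥
  swap
  · intro g
    have e1 := K.card_eq_card_quotient_mul_card_subgroup
    have e2 : 1 < Nat.card K := (Subgroup.one_lt_card_iff_ne_bot K).2 h0
    have e3 : 0 < Nat.card (H ⧸ K) := Nat.card_pos
    refine ih _ (by nlinarith) V (H ⧸ K) (QuotientGroup.lift K ρ fun g hg => (hK g).1 hg) rfl h4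
      (ho.of_dvd_nat (Subgroup.card_quotient_dvd_card K)) ?_ (g : H ⧸ K)
    have := congrArg (Subgroup.map (QuotientGroup.mk' K)) hP
    rwa [commutator_def, Subgroup.map_commutator,
      Subgroup.map_top_of_surjective _ (QuotientGroup.mk'_surjective K)] at this
  have inj : ∀ g, ρ g = 1 → g = 1 := fun g hg => Subgroup.mem_bot.1 (h0 ▸ (hK g).2 hg)
  by_contra! hc
  obtain ⟨g, hg⟩ := hc
  obtain ⟨T, -, hT⟩ := exists_minN (N := (⊤ : Subgroup H)) inferInstance fun e =>
    hg (by rw [Subgroup.mem_bot.1 (e ▸ Subgroup.mem_top g : g ∈ ⊥), map_one])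
  obtain ⟨⟨t, ht⟩, ht1⟩ := Subgroup.ne_bot_iff_exists_ne_one.1 hT.ne
  refine ht1 (Subtype.ext (inj t ?_))
  rcases hT.cases with ab | hp
  · exact abel4 ho hP ρ h hi hT.nor ab ht
  by_cases e : T = ⊤
  · subst e
    haveI : Nontrivial H := ⟨t, 1, fun e => ht1 (Subtype.ext e)⟩
    haveI : IsSimpleGroup H := ⟨fun N hN => hT.min N hN le_top⟩
    exact (simple4 ho hP ρ inj h).elim
  · have := lt T e
    exact ih _ (by omega) V T (ρ.comp T.subtype) rfl h4
      (ho.of_dvd_nat (Subgroup.card_subgroup_dvd_card T)) (perfect_top hp) ⟨t, ht⟩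

end Cfsg.Agent.L4.Solv
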